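import Mathlib
import Cfsg.Agent.H277.EM.Quad

/-!
# S2243: the covers of `Ω⁺_8(2)`, the group theory (helper731)
-/

set_option autoImplicit false

namespace Cfsg.Agent.H731.EMO

open Subgroup Cfsg.Agent.H277.MI

universe u v

variable {L : Type u} {S : Type v} [Group L] [Group S] {π : L →* S}

/-- all elements of the closure of a set of commuting involutions have square one -/
theorem sq_closure {G : Type u} [Group G] (s : Set G) (hs : ∀ x ∈ s, x * x = 1) (hc : ∀ x ∈ s, ∀ y ∈ s, x * y = y * x) :
    ∀ x ∈ closure s, x * x = 1 := by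
  have hcc : ∀ x ∈ closure s, ∀ y ∈ closure s, x * y = y * x := by
    intro x hx y hy
    have h1 : closure s ≤ centralizer (closure s : Set G) := by
      rw [closure_le]
      intro a ha
      rw [SetLike.mem_coe, mem_centralizer_iff]
      intro b hb
      have h2 : closure s ≤ centralizer ({a} : Set G) := by
        rw [closure_le]
        intro c hc'
        rw [SetLike.mem_coe, mem_centralizer_singleton_iff]
        exact hc c hc' a ha
      exact mem_centralizer_singleton_iff.1 (h2 hb)
    exact ((mem_centralizer_iff.1 (h1 hx)) y hy).symm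
  intro x hx
  induction hx using closure_induction with
  | mem x hx => exact hs x hx
  | one => exact mul_one 1
  | mul x y hx hy h1 h2 =>
    rw [show x * y * (x * y) = x * (y * x) * y by group, hcc y hy x hx, show x * (x * y) * y = x * x * (y * y) by group,
      h1, h2, mul_one]
  | inv x _ h1 => rw [← mul_inv_rev, h1, inv_one]

/-- lifts with commuting representatives -/
theorem em_of_lifts (hs : Function.Surjective π) (hc : π.ker ≤ center L) (h2 : ∀ z ∈ π.ker, z * z = 1)
    (s : Set L) (hs2 : ∀ x ∈ s, x * x = 1) (hsc : ∀ x ∈ s, ∀ y ∈ s, x * y = y * x)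
    (h : ∀ t : S, orderOf t = 2 → Lft π t → ∃ r ∈ closure s, IsConj t (π r)) : EM L := by
  refine em_of_lift hs hc h2 ((closure s).map π) ?_ ?_
  · rintro _ ⟨x, hx, rfl⟩
    exact ⟨x, rfl, sq_closure s hs2 hsc x hx⟩
  · intro t ht hl
    obtain ⟨r, hr, hc⟩ := h t ht hl
    obtain ⟨g, hg⟩ := isConj_iff.1 hc
    exact ⟨g, by rw [hg]; exact mem_map_of_mem π hr⟩

/-- the commutator of two lifts with the same square -/
theorem swap_eq (hc : π.ker ≤ center L) (h2 : ∀ z ∈ π.ker, z * z = 1) {a b : S} (ha : a * a = 1) {x y : L}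
    (hx : π x = a) (hy : π y = b) (hab : a * b = b * a) (hxy : x * x = y * y) :
    y * x = x * y * (x * y * (x * y)) := by
  obtain ⟨c, hcdef⟩ : ∃ c, c = (x * y)⁻¹ * (y * x) := ⟨_, rfl⟩
  have e2 : y * x = x * y * c := by rw [hcdef]; group
  have hck : c ∈ π.ker := by
    rw [hcdef, MonoidHom.mem_ker, map_mul, map_inv, map_mul, map_mul, hx, hy, hab, inv_mul_cancel]
  have e3 := sq_mul (fun g => mem_center_iff.1 (hc hck) g) e2
  have hxk : x * x ∈ π.ker := by rw [MonoidHom.mem_ker, map_mul, hx, ha]
  rw [← hxy, h2 _ hxk, one_mul] at e3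
  rw [e3, e2]

/-- **The covers of `Ω⁺_8(2)`.** -/
theorem o8_core (hs : Function.Surjective π) (hc : π.ker ≤ center L) (h2 : ∀ z ∈ π.ker, z * z = 1)
    {u1 w1 u2 w2 t s : S} (hu : u1 * u1 = 1)
    (cut : u1 * t = t * u1) (cus : u1 * s = s * u1) (cts : t * s = s * t)
    (kt : IsConj u1 t) (ks : IsConj u1 s) (kut : IsConj u1 (u1 * t)) (kus : IsConj u1 (u1 * s))
    (kts : IsConj u1 (t * s)) (kuts : IsConj u1 (u1 * t * s))
    (c11 : u1 * w1 = w1 * u1) (c22 : u2 * w2 = w2 * u2) (cuu : u1 * u2 = u2 * u1) (cuw : u1 * w2 = w2 * u1)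
    (cwu : w1 * u2 = u2 * w1) (cww : w1 * w2 = w2 * w1)
    (kw1 : IsConj u1 w1) (ku2 : IsConj u1 u2) (kw2 : IsConj u1 w2)
    (kP : IsConj (u1 * w1) (u2 * w2)) (kR : IsConj (u1 * u2) (w1 * w2)) (kS : IsConj (u1 * w2) (w1 * u2))
    (kC : IsConj (u1 * w1 * u2) (u1 * w1 * (u2 * w2)))
    (hall : ∀ r : S, orderOf r = 2 → IsConj r u1 ∨ IsConj r (u1 * w1) ∨ IsConj r (u1 * u2) ∨ IsConj r (u1 * w2) ∨
      IsConj r (u1 * w1 * (u2 * w2)))
    (hE : EM S) : EM L := by
  obtain ⟨x, hx⟩ := hs u1
  obtain ⟨y, hy⟩ := hs w1
  obtain ⟨x', hx'⟩ := hs u2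
  obtain ⟨y', hy'⟩ := hs w2
  obtain ⟨a, ha⟩ := hs t
  obtain ⟨b, hb⟩ := hs s
  have kerc : ∀ z ∈ π.ker, ∀ g, g * z = z * g := fun z hz g => mem_center_iff.1 (hc hz) g
  have hone : ∀ g : L, g * (1 : L) = 1 * g := fun g => by rw [mul_one, one_mul]
  -- step 1: the first class lifts
  have hα : x * x ∈ π.ker := by rw [MonoidHom.mem_ker, map_mul, hx, hu]
  have hx2 : x * x = 1 := by
    have hxa : x * x = a * a := sq_lift_eq hs hc h2 hu kt hx ha
    have hxb : x * x = b * b := sq_lift_eq hs hc h2 hu ks hx hb
    have ht : t * t = 1 := by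
      rw [← ha, ← map_mul, ← hxa, map_mul, hx, hu]
    have s1 := swap_eq hc h2 hu hx ha cut hxa
    have s2 := swap_eq hc h2 hu hx hb cus hxb
    have s3 := swap_eq hc h2 ht ha hb cts (hxa.symm.trans hxb)
    have e1 : x * x = x * a * (x * a) := sq_lift_eq hs hc h2 hu kut hx (by rw [map_mul, hx, ha])
    have e2 : x * x = x * b * (x * b) := sq_lift_eq hs hc h2 hu kus hx (by rw [map_mul, hx, hb])
    have e3 : x * x = a * b * (a * b) := sq_lift_eq hs hc h2 hu kts hx (by rw [map_mul, ha, hb])
    have e4 : x * x = x * a * b * (x * a * b) :=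
      sq_lift_eq hs hc h2 hu kuts hx (by rw [map_mul, map_mul, hx, ha, hb])
    rw [← e1] at s1
    rw [← e2] at s2
    rw [← e3] at s3
    have s4 := comm_mul (kerc _ hα) s2 s3
    rw [h2 _ hα] at s4
    have s5 := sq_mul hone s4
    rw [← e4, ← e1, ← hxb, h2 _ hα, one_mul] at s5
    exact s5
  have hy2 : y * y = 1 := by rw [← sq_lift_eq hs hc h2 hu kw1 hx hy, hx2]
  have hx2' : x' * x' = 1 := by rw [← sq_lift_eq hs hc h2 hu ku2 hx hx', hx2]
  have hy2' : y' * y' = 1 := by rw [← sq_lift_eq hs hc h2 hu kw2 hx hy', hx2]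
  have hw : w1 * w1 = 1 := by rw [← hy, ← map_mul, hy2, map_one]
  have hu' : u2 * u2 = 1 := by rw [← hx', ← map_mul, hx2', map_one]
  have hw' : w2 * w2 = 1 := by rw [← hy', ← map_mul, hy2', map_one]
  -- step 2: the constants
  have inv2 : ∀ {p q : S}, p * p = 1 → q * q = 1 → p * q = q * p → p * q * (p * q) = 1 := by
    intro p q hp hq hpq
    calc p * q * (p * q) = p * (q * p) * q := by group
      _ = (p * p) * (q * q) := by rw [← hpq]; group
      _ = 1 := by rw [hp, hq, mul_one]
  obtain ⟨P, hP⟩ : ∃ P, P = x * y * (x * y) := ⟨_, rfl⟩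
  obtain ⟨R, hR⟩ : ∃ R, R = x * x' * (x * x') := ⟨_, rfl⟩
  obtain ⟨T, hT⟩ : ∃ T, T = x * y' * (x * y') := ⟨_, rfl⟩
  have i11 := inv2 hu hw c11
  have iuu := inv2 hu hu' cuu
  have iuw := inv2 hu hw' cuw
  have hPk : P ∈ π.ker := by rw [hP, MonoidHom.mem_ker, map_mul, map_mul, hx, hy, i11]
  have hRk : R ∈ π.ker := by rw [hR, MonoidHom.mem_ker, map_mul, map_mul, hx, hx', iuu]
  have hTk : T ∈ π.ker := by rw [hT, MonoidHom.mem_ker, map_mul, map_mul, hx, hy', iuw]
  have P2 := h2 _ hPk
  have R2 := h2 _ hRk
  have T2 := h2 _ hTk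
  have Pc := kerc _ hPk
  have Rc := kerc _ hRk
  have Tc := kerc _ hTk
  have eP : x' * y' * (x' * y') = P := by
    rw [hP]
    exact (sq_lift_eq hs hc h2 i11 kP (by rw [map_mul, hx, hy]) (by rw [map_mul, hx', hy'])).symm
  have eR : y * y' * (y * y') = R := by
    rw [hR]
    exact (sq_lift_eq hs hc h2 iuu kR (by rw [map_mul, hx, hx']) (by rw [map_mul, hy, hy'])).symm
  have eT : y * x' * (y * x') = T := by
    rw [hT]
    exact (sq_lift_eq hs hc h2 iuw kS (by rw [map_mul, hx, hy']) (by rw [map_mul, hy, hx'])).symm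
  have s11 : y * x = x * y * P := by rw [hP]; exact swap_eq hc h2 hu hx hy c11 (hx2.trans hy2.symm)
  have s22 : y' * x' = x' * y' * P := by rw [← eP]; exact swap_eq hc h2 hu' hx' hy' c22 (hx2'.trans hy2'.symm)
  have suu : x' * x = x * x' * R := by rw [hR]; exact swap_eq hc h2 hu hx hx' cuu (hx2.trans hx2'.symm)
  have sww : y' * y = y * y' * R := by rw [← eR]; exact swap_eq hc h2 hw hy hy' cww (hy2.trans hy2'.symm)
  have suw : y' * x = x * y' * T := by rw [hT]; exact swap_eq hc h2 hu hx hy' cuw (hx2.trans hy2'.symm)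
  have swu : x' * y = y * x' * T := by rw [← eT]; exact swap_eq hc h2 hw hy hx' cwu (hy2.trans hx2'.symm)
  -- `x' (x y) = (x y) x' (R T)` etc.
  have RTc : ∀ g, g * (R * T) = R * T * g := fun g => by
    rw [← mul_assoc, Rc, mul_assoc, Tc, mul_assoc]
  have TRc : ∀ g, g * (T * R) = T * R * g := fun g => by
    rw [← mul_assoc, Tc, mul_assoc, Rc, mul_assoc]
  have q1 := comm_mul Rc suu swu
  have q2 := comm_mul Tc suw sww
  have q3 : x' * y' * (x * y) = x * y * (x' * y') := by
    have h1 : (R * T) * (T * R) = 1 := by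
      calc (R * T) * (T * R) = R * (T * T) * R := by group
        _ = 1 := by rw [T2, mul_one, R2]
    calc x' * y' * (x * y) = x' * (y' * (x * y)) := by group
      _ = x' * (x * y) * y' * (T * R) := by rw [q2]; group
      _ = x * y * x' * ((R * T) * y') * (T * R) := by rw [q1]; group
      _ = x * y * x' * y' * ((R * T) * (T * R)) := by rw [← RTc]; group
      _ = x * y * (x' * y') := by rw [h1]; group
  have e1 : x * y * x' * (x * y * x') = P * (R * T) := by
    rw [sq_mul RTc q1, ← hP, hx2', mul_one]
  have e2 : x * y * (x' * y') * (x * y * (x' * y')) = 1 := by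
    have h1 := sq_mul (x := x * y) (y := x' * y') hone (by rw [q3, mul_one])
    rw [h1, ← hP, eP, P2, mul_one]
  have i3 : u1 * w1 * u2 * (u1 * w1 * u2) = 1 := by
    refine inv2 i11 hu' ?_
    rw [mul_assoc, cwu, ← mul_assoc, cuu, mul_assoc]
  have hPRT : P * (R * T) = 1 := by
    rw [← e1, ← e2]
    exact sq_lift_eq hs hc h2 i3 kC (by rw [map_mul, map_mul, hx, hy, hx'])
      (by rw [map_mul, map_mul, map_mul, hx, hy, hx', hy'])
  -- lifting
  have l1 : Lft π u1 := ⟨x, hx, hx2⟩
  have lC : Lft π (u1 * w1 * (u2 * w2)) := ⟨x * y * (x' * y'), by rw [map_mul, map_mul, map_mul, hx, hy, hx', hy'], e2⟩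
  have lP : Lft π (u1 * w1) → P = 1 := fun h => by
    rw [hP]; exact h.all hc h2 (by rw [map_mul, hx, hy])
  have lR : Lft π (u1 * u2) → R = 1 := fun h => by
    rw [hR]; exact h.all hc h2 (by rw [map_mul, hx, hx'])
  have lT : Lft π (u1 * w2) → T = 1 := fun h => by
    rw [hT]; exact h.all hc h2 (by rw [map_mul, hx, hy'])
  -- commutation of `x` with the long products
  have conv1 : R * T = 1 → R = T := fun h => by
    calc R = R * (T * T) := by rw [T2, mul_one]
      _ = (R * T) * T := by group
      _ = T := by rw [h, one_mul]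
  by_cases hall1 : P = 1 ∧ R = 1 ∧ T = 1
  · obtain ⟨p1, r1, t1⟩ := hall1
    refine em_of_all_lift hs hc h2 (fun r hr => ?_) hE
    rcases hall r hr with h | h | h | h | h
    · exact l1.isConj hs h.symm
    · exact (show Lft π (u1 * w1) from ⟨x * y, by rw [map_mul, hx, hy], by rw [← hP, p1]⟩).isConj hs h.symm
    · exact (show Lft π (u1 * u2) from ⟨x * x', by rw [map_mul, hx, hx'], by rw [← hR, r1]⟩).isConj hs h.symm
    · exact (show Lft π (u1 * w2) from ⟨x * y', by rw [map_mul, hx, hy'], by rw [← hT, t1]⟩).isConj hs h.symm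
    · exact lC.isConj hs h.symm
  by_cases hP1 : P = 1
  · -- exactly the class `c_2`
    have hRT : R * T = 1 := by rw [hP1, one_mul] at hPRT; exact hPRT
    have hR1 : R ≠ 1 := fun h => hall1 ⟨hP1, h, by rw [← conv1 hRT, h]⟩
    have hT1 : T ≠ 1 := fun h => hall1 ⟨hP1, by rw [conv1 hRT, h], h⟩
    have cxy : x * y = y * x := by rw [s11, hP1, mul_one]
    have sq3 : x' * y' * (x' * y') = 1 := by rw [eP, hP1]
    have c1 : x * (x' * y') = x' * y' * x := by
      have h1 : x' * y' * x = x * (x' * y') * (R * T) := by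
        calc x' * y' * x = x' * (y' * x) := by group
          _ = (x' * x) * y' * T := by rw [suw]; group
          _ = x * x' * (R * y') * T := by rw [suu]; group
          _ = x * (x' * y') * (R * T) := by rw [← Rc]; group
      rw [h1, hRT, mul_one]
    have c2 : y * (x' * y') = x' * y' * y := by
      have h1 : x' * y' * y = y * (x' * y') * (T * R) := by
        calc x' * y' * y = x' * (y' * y) := by group
          _ = (x' * y) * y' * R := by rw [sww]; group
          _ = y * x' * (T * y') * R := by rw [swu]; group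
          _ = y * (x' * y') * (T * R) := by rw [← Tc]; group
      rw [h1, Rc T, hRT, mul_one]
    refine em_of_lifts hs hc h2 {x, y, x' * y'} ?_ ?_ ?_
    · rintro r (rfl | rfl | rfl)
      · exact hx2
      · exact hy2
      · exact sq3
    · rintro r (rfl | rfl | rfl) r' (rfl | rfl | rfl)
      · rfl
      · exact cxy
      · exact c1
      · exact cxy.symm
      · rfl
      · exact c2
      · exact c1.symm
      · exact c2.symm
      · rfl
    · intro r hr hl
      rcases hall r hr with h | h | h | h | h
      · exact ⟨x, subset_closure (Or.inl rfl), by rw [hx]; exact h⟩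
      · exact ⟨x * y, mul_mem (subset_closure (Or.inl rfl)) (subset_closure (Or.inr (Or.inl rfl))), by
          rw [map_mul, hx, hy]; exact h⟩
      · exact absurd (lR (hl.isConj hs h)) hR1
      · exact absurd (lT (hl.isConj hs h)) hT1
      · exact ⟨x * y * (x' * y'), mul_mem (mul_mem (subset_closure (Or.inl rfl)) (subset_closure (Or.inr (Or.inl rfl))))
          (subset_closure (Or.inr (Or.inr rfl))), by
          rw [map_mul, map_mul, map_mul, hx, hy, hx', hy']; exact h⟩
  by_cases hR1 : R = 1
  · -- exactly the class `a_4`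
    have hPT : P * T = 1 := by rw [hR1, one_mul] at hPRT; exact hPRT
    have hT1 : T ≠ 1 := fun h => hP1 (by rw [h, mul_one] at hPT; exact hPT)
    have cxx : x * x' = x' * x := by rw [suu, hR1, mul_one]
    have sq3 : y * y' * (y * y') = 1 := by rw [eR, hR1]
    have c1 : x * (y * y') = y * y' * x := by
      have h1 : y * y' * x = x * (y * y') * (P * T) := by
        calc y * y' * x = y * (y' * x) := by group
          _ = (y * x) * y' * T := by rw [suw]; group
          _ = x * y * (P * y') * T := by rw [s11]; group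
          _ = x * (y * y') * (P * T) := by rw [← Pc]; group
      rw [h1, hPT, mul_one]
    have c2 : x' * (y * y') = y * y' * x' := by
      have h1 : y * y' * x' = y * x' * y' * P := by
        calc y * y' * x' = y * (y' * x') := by group
          _ = y * x' * y' * P := by rw [s22]; group
      have h3 : x' * (y * y') = y * x' * y' * T := by
        calc x' * (y * y') = (x' * y) * y' := by group
          _ = y * x' * (T * y') := by rw [swu]; group
          _ = y * x' * y' * T := by rw [← Tc]; group
      have h4 : P = T := by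
        calc P = P * (T * T) := by rw [T2, mul_one]
          _ = (P * T) * T := by group
          _ = T := by rw [hPT, one_mul]
      rw [h1, h3, h4]
    refine em_of_lifts hs hc h2 {x, x', y * y'} ?_ ?_ ?_
    · rintro r (rfl | rfl | rfl)
      · exact hx2
      · exact hx2'
      · exact sq3
    · rintro r (rfl | rfl | rfl) r' (rfl | rfl | rfl)
      · rfl
      · exact cxx
      · exact c1
      · exact cxx.symm
      · rfl
      · exact c2
      · exact c1.symm
      · exact c2.symm
      · rfl
    · intro r hr hl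
      rcases hall r hr with h | h | h | h | h
      · exact ⟨x, subset_closure (Or.inl rfl), by rw [hx]; exact h⟩
      · exact absurd (lP (hl.isConj hs h)) hP1
      · exact ⟨x * x', mul_mem (subset_closure (Or.inl rfl)) (subset_closure (Or.inr (Or.inl rfl))), by
          rw [map_mul, hx, hx']; exact h⟩
      · exact absurd (lT (hl.isConj hs h)) hT1
      · refine ⟨x * x' * (y * y'), mul_mem (mul_mem (subset_closure (Or.inl rfl))
          (subset_closure (Or.inr (Or.inl rfl)))) (subset_closure (Or.inr (Or.inr rfl))), ?_⟩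
        have h5 : π (x * x' * (y * y')) = u1 * w1 * (u2 * w2) := by
          rw [map_mul, map_mul, map_mul, hx, hy, hx', hy']
          calc u1 * u2 * (w1 * w2) = u1 * (u2 * w1) * w2 := by group
            _ = u1 * w1 * (u2 * w2) := by rw [← cwu]; group
        rw [h5]; exact h
  by_cases hT1 : T = 1
  · -- exactly the class `a_4'`
    have hPR : P * R = 1 := by rw [hT1, mul_one] at hPRT; exact hPRT
    have hPeR : P = R := by
      calc P = P * (R * R) := by rw [R2, mul_one]
        _ = (P * R) * R := by group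
        _ = R := by rw [hPR, one_mul]
    have cxy' : x * y' = y' * x := by rw [suw, hT1, mul_one]
    have sq3 : y * x' * (y * x') = 1 := by rw [eT, hT1]
    have c1 : x * (y * x') = y * x' * x := by
      have h1 : y * x' * x = x * (y * x') * (P * R) := by
        calc y * x' * x = y * (x' * x) := by group
          _ = (y * x) * x' * R := by rw [suu]; group
          _ = x * y * (P * x') * R := by rw [s11]; group
          _ = x * (y * x') * (P * R) := by rw [← Pc]; group
      rw [h1, hPR, mul_one]
    have c2 : y' * (y * x') = y * x' * y' := by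
      calc y' * (y * x') = (y' * y) * x' := by group
        _ = y * y' * (R * x') := by rw [sww]; group
        _ = y * (y' * x') * R := by rw [← Rc]; group
        _ = y * x' * y' * (P * R) := by rw [s22]; group
        _ = y * x' * y' := by rw [hPR, mul_one]
    refine em_of_lifts hs hc h2 {x, y', y * x'} ?_ ?_ ?_
    · rintro r (rfl | rfl | rfl)
      · exact hx2
      · exact hy2'
      · exact sq3
    · rintro r (rfl | rfl | rfl) r' (rfl | rfl | rfl)
      · rfl
      · exact cxy'
      · exact c1
      · exact cxy'.symm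
      · rfl
      · exact c2
      · exact c1.symm
      · exact c2.symm
      · rfl
    · intro r hr hl
      rcases hall r hr with h | h | h | h | h
      · exact ⟨x, subset_closure (Or.inl rfl), by rw [hx]; exact h⟩
      · exact absurd (lP (hl.isConj hs h)) hP1
      · exact absurd (lR (hl.isConj hs h)) hR1
      · exact ⟨x * y', mul_mem (subset_closure (Or.inl rfl)) (subset_closure (Or.inr (Or.inl rfl))), by
          rw [map_mul, hx, hy']; exact h⟩
      · refine ⟨x * y' * (y * x'), mul_mem (mul_mem (subset_closure (Or.inl rfl))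
          (subset_closure (Or.inr (Or.inl rfl)))) (subset_closure (Or.inr (Or.inr rfl))), ?_⟩
        have h5 : π (x * y' * (y * x')) = u1 * w1 * (u2 * w2) := by
          rw [map_mul, map_mul, map_mul, hx, hy, hx', hy']
          calc u1 * w2 * (w1 * u2) = u1 * (w2 * w1) * u2 := by group
            _ = u1 * w1 * (w2 * u2) := by rw [← cww]; group
            _ = u1 * w1 * (u2 * w2) := by rw [c22]
        rw [h5]; exact h
  · -- none of the three classes
    refine em_of_lifts hs hc h2 {x, x * y * (x' * y')} ?_ ?_ ?_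
    · rintro r (rfl | rfl)
      · exact hx2
      · exact e2
    · have c1 : x * (x * y * (x' * y')) = x * y * (x' * y') * x := by
        have h1 : x' * y' * x = x * (x' * y') * (R * T) := by
          calc x' * y' * x = x' * (y' * x) := by group
            _ = (x' * x) * y' * T := by rw [suw]; group
            _ = x * x' * (R * y') * T := by rw [suu]; group
            _ = x * (x' * y') * (R * T) := by rw [← Rc]; group
        symm
        calc x * y * (x' * y') * x = x * y * (x' * y' * x) := by group
          _ = x * (y * x) * (x' * y') * (R * T) := by rw [h1]; group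
          _ = x * (x * y) * (P * (x' * y')) * (R * T) := by rw [s11]; group
          _ = x * (x * y) * (x' * y') * (P * (R * T)) := by rw [← Pc]; group
          _ = x * (x * y * (x' * y')) := by rw [hPRT]; group
      rintro r (rfl | rfl) r' (rfl | rfl)
      · rfl
      · exact c1
      · exact c1.symm
      · rfl
    · intro r hr hl
      rcases hall r hr with h | h | h | h | h
      · exact ⟨x, subset_closure (Or.inl rfl), by rw [hx]; exact h⟩
      · exact absurd (lP (hl.isConj hs h)) hP1
      · exact absurd (lR (hl.isConj hs h)) hR1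
      · exact absurd (lT (hl.isConj hs h)) hT1
      · exact ⟨x * y * (x' * y'), subset_closure (Or.inr rfl), by
          rw [map_mul, map_mul, map_mul, hx, hy, hx', hy']; exact h⟩

end Cfsg.Agent.H731.EMO
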