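import Mathlib
import Cfsg.Agent.H277.EM.Basic
import Cfsg.Agent.H177.OmegaClasses
import Cfsg.Agent.LieClassical.OrthCenter

/-!
# Orthogonal groups in characteristic two: an elementary abelian 2-subgroup meeting all classes of involutions
(helper731, for S2243)
-/

set_option autoImplicit false
set_option linter.unusedSectionVars false

namespace Cfsg.Agent.H731.EMO

open QuadraticMap Matrix Module Subgroup
open Cfsg.Agent.ClassicalGeometry.Reflection
open Cfsg.Agent.ClassicalGeometry.OrthCharTwo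
open Cfsg.Agent.ClassicalGeometry.OrthDickson
open Cfsg.Agent.H177.InvolGroup
open Cfsg.Agent.H177.InvolExist
open Cfsg.Agent.H177.InvolCount
open Cfsg.Agent.H177.OmegaSign
open Cfsg.Agent.H177.OmegaClasses
open Cfsg.Agent.H277.MI

variable {ι : Type} [Fintype ι] [DecidableEq ι] {F : Type*} [Field F]
variable (Q : QuadraticForm F (ι → F))

/-! ### Orthogonal products -/

section orth

variable {Q}

theorem act_of_orth (hQ : (polarBilin Q).Nondegenerate) {g : Cfsg.isometryGroup F (⇑Q)} {y : ι → F}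
    (h : ∀ x ∈ resSp g, polar Q x y = 0) : act g y = y := by
  have h1 : y ∈ fixSp g := by
    rw [← orthogonal_resSp Q hQ g, LinearMap.BilinForm.mem_orthogonal_iff]
    exact h
  exact mem_fixSp.1 h1

/-- isometries with orthogonal residual spaces commute -/
theorem comm_of_orth (hQ : (polarBilin Q).Nondegenerate) {g h : Cfsg.isometryGroup F (⇑Q)}
    (horth : ∀ x ∈ resSp g, ∀ y ∈ resSp h, polar Q x y = 0) : g * h = h * g := by
  apply act_ext
  intro x
  have h1 : act g (act h x - x) = act h x - x :=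
    act_of_orth hQ fun a ha => horth a ha _ ⟨x, rfl⟩
  have h2 : act h (act g x - x) = act g x - x :=
    act_of_orth hQ fun a ha => by
      rw [polar_comm]
      exact horth _ ⟨x, rfl⟩ a ha
  rw [act_sub, sub_eq_iff_eq_add] at h1 h2
  rw [act_mul, act_mul, h1, h2]
  abel

theorem act_mul_sub (hQ : (polarBilin Q).Nondegenerate) {g h : Cfsg.isometryGroup F (⇑Q)}
    (horth : ∀ x ∈ resSp g, ∀ y ∈ resSp h, polar Q x y = 0) (x : ι → F) :
    act (g * h) x - x = (act g x - x) + (act h x - x) := by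
  have h1 : act g (act h x - x) = act h x - x :=
    act_of_orth hQ fun a ha => horth a ha _ ⟨x, rfl⟩
  rw [act_sub, sub_eq_iff_eq_add] at h1
  rw [act_mul, h1]
  abel

theorem resSp_mul (hQ : (polarBilin Q).Nondegenerate) {g h : Cfsg.isometryGroup F (⇑Q)}
    (horth : ∀ x ∈ resSp g, ∀ y ∈ resSp h, polar Q x y = 0) (hd : resSp g ⊓ resSp h = ⊥) :
    resSp (g * h) = resSp g ⊔ resSp h := by
  have h1 : fixSp (g * h) = LinearMap.BilinForm.orthogonal (polarBilin Q) (resSp g ⊔ resSp h) := by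
    ext x
    rw [LinearMap.BilinForm.mem_orthogonal_iff]
    constructor
    · intro hx
      have h3 := act_mul_sub hQ horth x
      rw [mem_fixSp.1 hx, sub_self] at h3
      have h4 : act g x - x = 0 := by
        have h5 : act g x - x ∈ resSp g ⊓ resSp h := by
          refine ⟨⟨x, rfl⟩, ?_⟩
          rw [eq_neg_of_add_eq_zero_left h3.symm]
          exact (resSp h).neg_mem ⟨x, rfl⟩
        rw [hd] at h5
        exact (Submodule.mem_bot F).1 h5
      have h5 : act h x - x = 0 := by rw [h4, zero_add] at h3; exact h3.symm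
      have h6 : x ∈ fixSp g := mem_fixSp.2 (sub_eq_zero.1 h4)
      have h7 : x ∈ fixSp h := mem_fixSp.2 (sub_eq_zero.1 h5)
      intro y hy
      obtain ⟨a, ha, b, hb, rfl⟩ := Submodule.mem_sup.1 hy
      show polar Q (a + b) x = 0
      rw [polar_add_left, polar_res_fix Q ha h6, polar_res_fix Q hb h7, add_zero]
    · intro hx
      have h6 : act g x = x := act_of_orth hQ fun a ha => hx a (Submodule.mem_sup_left ha)
      have h7 : act h x = x := act_of_orth hQ fun a ha => hx a (Submodule.mem_sup_right ha)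
      rw [mem_fixSp, act_mul, h7, h6]
  rw [← orthogonal_fixSp Q hQ, h1]
  exact LinearMap.BilinForm.orthogonal_orthogonal hQ (polarBilin_isRefl Q) _

theorem finrank_resSp_mul (hQ : (polarBilin Q).Nondegenerate) {g h : Cfsg.isometryGroup F (⇑Q)}
    (horth : ∀ x ∈ resSp g, ∀ y ∈ resSp h, polar Q x y = 0) (hd : resSp g ⊓ resSp h = ⊥) :
    finrank F (resSp (g * h)) = finrank F (resSp g) + finrank F (resSp h) := by
  rw [resSp_mul hQ horth hd]
  have h1 := Submodule.finrank_sup_add_finrank_inf_eq (resSp g) (resSp h)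
  rw [hd, finrank_bot, add_zero] at h1
  exact h1

theorem alt_mul (hQ : (polarBilin Q).Nondegenerate) {g h : Cfsg.isometryGroup F (⇑Q)}
    (horth : ∀ x ∈ resSp g, ∀ y ∈ resSp h, polar Q x y = 0) (hd : resSp g ⊓ resSp h = ⊥) :
    Alt (g * h) ↔ Alt g ∧ Alt h := by
  unfold Alt
  rw [resSp_mul hQ horth hd]
  constructor
  · intro H
    exact ⟨fun v hv => H v (Submodule.mem_sup_left hv), fun v hv => H v (Submodule.mem_sup_right hv)⟩
  · rintro ⟨h1, h2⟩ v hv
    obtain ⟨a, ha, b, hb, rfl⟩ := Submodule.mem_sup.1 hv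
    rw [map_add', h1 a ha, h2 b hb, horth a ha b hb]
    ring

end orth

/-! ### Existence with control of the residual space -/

theorem exists_nonalt_rank' [CharP F 2] (hQ : (polarBilin Q).Nondegenerate) {k : ℕ}
    (v : Fin k → ι → F) (hli : LinearIndependent F v) (horth : ∀ i j, polar Q (v i) (v j) = 0)
    (hv : ∀ i, Q (v i) = 1) (s : ℕ) (hs : 1 ≤ s) (hsk : s ≤ k) :
    ∃ g : Cfsg.isometryGroup F (⇑Q), g * g = 1 ∧ finrank F (resSp g) = s ∧ ¬ Alt g ∧
      resSp g ≤ Submodule.span F (Set.range v) := by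
  have hli' : LinearIndependent F fun i : Fin s => v (Fin.castLE hsk i) :=
    hli.comp _ (Fin.castLE_injective hsk)
  obtain ⟨g, hg, hr⟩ := exists_nonalt Q hQ (fun i : Fin s => v (Fin.castLE hsk i)) hli'
    (fun i j => horth _ _) (fun i => hv _)
  refine ⟨g, hg, ?_, ?_, ?_⟩
  · rw [hr, finrank_span_eq_card hli', Fintype.card_fin]
  · intro ha
    have h1 := ha (v (Fin.castLE hsk ⟨0, hs⟩)) (by
      rw [hr]
      exact Submodule.subset_span ⟨⟨0, hs⟩, rfl⟩)
    rw [hv] at h1
    exact one_ne_zero h1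
  · rw [hr]
    apply Submodule.span_mono
    rintro _ ⟨i, rfl⟩
    exact ⟨_, rfl⟩

theorem exists_alt_rank' [CharP F 2] (hQ : (polarBilin Q).Nondegenerate) {k : ℕ}
    (v : Fin k → ι → F) (hli : LinearIndependent F v) (horth : ∀ i j, polar Q (v i) (v j) = 0)
    (hv : ∀ i, Q (v i) = 0) (r : ℕ) (hrk : 2 * r ≤ k) :
    ∃ g : Cfsg.isometryGroup F (⇑Q), g * g = 1 ∧ finrank F (resSp g) = 2 * r ∧ Alt g ∧
      resSp g ≤ Submodule.span F (Set.range v) := by
  let e : Fin r ⊕ Fin r → Fin k := fun x => Fin.castLE hrk (Fin.cast (by omega) (finSumFinEquiv x))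
  have he : Function.Injective e := by
    intro x y hxy
    have h1 := Fin.castLE_injective hrk hxy
    have h2 := Fin.cast_injective _ h1
    exact finSumFinEquiv.injective h2
  have hli' : LinearIndependent F fun i => v (e i) := hli.comp _ he
  obtain ⟨g, hg, hr⟩ := exists_alt Q hQ (fun i => v (e i)) hli'
    (fun i j => horth _ _) (fun i => hv _)
  refine ⟨g, hg, ?_, ?_, ?_⟩
  · rw [hr, finrank_span_eq_card hli', Fintype.card_sum, Fintype.card_fin, two_mul]
  · exact alt_of_span Q (fun i => v (e i)) (fun i j => horth _ _) (fun i => hv _) g hr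
  · rw [hr]
    apply Submodule.span_mono
    rintro _ ⟨i, rfl⟩
    exact ⟨_, rfl⟩

/-! ### From the isometry group to `Ω` -/

theorem even_of_omega (hΩ : ∀ g : Cfsg.isometryGroup F (⇑Q),
      g ∈ commutator (Cfsg.isometryGroup F (⇑Q)) ↔ dsign Q g = 1) (g : ↥(Cfsg.Omega F (⇑Q))) :
    ∃ r, finrank F (resSp (g : Cfsg.isometryGroup F (⇑Q))) = 2 * r := by
  obtain ⟨r, hr⟩ := (even_rank Q hΩ g).1 g.2
  exact ⟨r, by omega⟩

/-- conjugacy in `Ω` from the invariants -/
theorem conj_of_inv [Finite F] [CharP F 2] (hQ : (polarBilin Q).Nondegenerate)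
    (hΩ : ∀ g : Cfsg.isometryGroup F (⇑Q),
      g ∈ commutator (Cfsg.isometryGroup F (⇑Q)) ↔ dsign Q g = 1)
    (t g : ↥(Cfsg.Omega F (⇑Q))) (ht : (t : Cfsg.isometryGroup F (⇑Q)) * t = 1)
    (hg : (g : Cfsg.isometryGroup F (⇑Q)) * g = 1)
    (h : ¬ Alt (t : Cfsg.isometryGroup F (⇑Q)) ∨
      2 * finrank F (resSp (t : Cfsg.isometryGroup F (⇑Q))) < Fintype.card ι)
    (h1 : finrank F (resSp (t : Cfsg.isometryGroup F (⇑Q))) = finrank F (resSp (g : Cfsg.isometryGroup F (⇑Q))))
    (h2 : Alt (t : Cfsg.isometryGroup F (⇑Q)) ↔ Alt (g : Cfsg.isometryGroup F (⇑Q))) : IsConj t g := by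
  rw [isConj_Omega_iff Q hQ hΩ t g (exists_fixed Q hQ _ ht h), isConj_iff_rank_alt Q hQ _ _ ht hg]
  exact ⟨h1, h2⟩

/-- **One maximal totally isotropic subspace.** -/
theorem em_omega_T [Finite F] [CharP F 2] (hQ : (polarBilin Q).Nondegenerate)
    (hΩ : ∀ g : Cfsg.isometryGroup F (⇑Q),
      g ∈ commutator (Cfsg.isometryGroup F (⇑Q)) ↔ dsign Q g = 1) {n : ℕ} (v : Fin (n + 1) → ι → F)
    (hli : LinearIndependent F v) (horth : ∀ i j, polar Q (v i) (v j) = 0) (hv : ∀ i, Q (v i) = 1)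
    (h3 : ∀ g : Cfsg.isometryGroup F (⇑Q), g * g = 1 → finrank F (resSp g) ≤ n + 1)
    (h4 : ∀ g : Cfsg.isometryGroup F (⇑Q), g * g = 1 → Alt g → finrank F (resSp g) ≤ n)
    (h5 : ∀ g : Cfsg.isometryGroup F (⇑Q), g * g = 1 → Alt g → 2 * finrank F (resSp g) < Fintype.card ι) :
    EM ↥(Cfsg.Omega F (⇑Q)) := by
  set T : Submodule F (ι → F) := Submodule.span F (Set.range v) with hT
  have hTT : ∀ x ∈ T, ∀ y ∈ T, polar Q x y = 0 := by
    intro x hx y hy
    rw [hT, Submodule.mem_span_range_iff_exists_fun] at hx hy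
    obtain ⟨c, rfl⟩ := hx
    obtain ⟨d, rfl⟩ := hy
    have h6 : polarBilin Q (∑ i, c i • v i) (∑ i, d i • v i) = 0 := by
      rw [map_sum]
      refine Finset.sum_eq_zero fun j _ => ?_
      rw [map_sum, LinearMap.sum_apply]
      refine Finset.sum_eq_zero fun i _ => ?_
      rw [map_smul, polarBilin_apply_apply, polar_smul_left, horth, smul_zero, smul_zero]
    exact h6
  -- singular vectors in `T`
  have hli' : LinearIndependent F fun i : Fin n => v 0 + v i.succ := by
    rw [Fintype.linearIndependent_iff] at hli ⊢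
    intro c hc i
    have h6 := hli (Fin.cons (∑ i, c i) c) (by
      rw [Fin.sum_univ_succ]
      simp only [Fin.cons_zero, Fin.cons_succ]
      rw [← hc, Finset.sum_smul, ← Finset.sum_add_distrib]
      exact Finset.sum_congr rfl fun j _ => by rw [smul_add]) i.succ
    rwa [Fin.cons_succ] at h6
  have h2F : (2 : F) = 0 := CharTwo.two_eq_zero
  have hv' : ∀ i : Fin n, Q (v 0 + v i.succ) = 0 := by
    intro i
    rw [map_add', hv, hv, horth]
    linear_combination h2F
  have horth' : ∀ i j : Fin n, polar Q (v 0 + v i.succ) (v 0 + v j.succ) = 0 := by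
    intro i j
    rw [polar_add_left, polar_add_right, polar_add_right, horth, horth, horth, horth]
    ring
  have hT' : Submodule.span F (Set.range fun i : Fin n => v 0 + v i.succ) ≤ T := by
    rw [Submodule.span_le]
    rintro _ ⟨i, rfl⟩
    exact T.add_mem (Submodule.subset_span ⟨_, rfl⟩) (Submodule.subset_span ⟨_, rfl⟩)
  refine em_of_commuting {g : ↥(Cfsg.Omega F (⇑Q)) | g * g = 1 ∧ resSp (g : Cfsg.isometryGroup F (⇑Q)) ≤ T}
    (fun x hx => hx.1) ?_ ?_
  · rintro x ⟨-, hx⟩ y ⟨-, hy⟩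
    exact Subtype.ext (comm_of_orth hQ fun a ha b hb => hTT a (hx ha) b (hy hb))
  · intro t ht
    have htt : t * t = 1 := sq_of_orderOf ht
    have htt' : (t : Cfsg.isometryGroup F (⇑Q)) * t = 1 := congrArg Subtype.val htt
    obtain ⟨r, hr⟩ := even_of_omega Q hΩ t
    have hr1 : 1 ≤ r := by
      by_contra h0
      have h6 : 0 < finrank F (resSp (t : Cfsg.isometryGroup F (⇑Q))) := by
        rw [finrank_resSp_pos]
        intro h7
        exact ne_one_of_orderOf ht (Subtype.ext h7)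
      omega
    obtain ⟨g, hg1, hg2, hg3, hg4, hcon⟩ : ∃ g : Cfsg.isometryGroup F (⇑Q), g * g = 1 ∧ finrank F (resSp g) = 2 * r ∧
        (Alt (t : Cfsg.isometryGroup F (⇑Q)) ↔ Alt g) ∧ resSp g ≤ T ∧ (¬ Alt (t : Cfsg.isometryGroup F (⇑Q)) ∨
          2 * finrank F (resSp (t : Cfsg.isometryGroup F (⇑Q))) < Fintype.card ι) := by
      by_cases hA : Alt (t : Cfsg.isometryGroup F (⇑Q))
      · obtain ⟨g, hg1, hg2, hg3, hg4⟩ := exists_alt_rank' Q hQ _ hli' horth' hv' r (by
          rw [← hr]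
          exact h4 _ htt' hA)
        exact ⟨g, hg1, hg2, ⟨fun _ => hg3, fun _ => hA⟩, hg4.trans hT', Or.inr (h5 _ htt' hA)⟩
      · obtain ⟨g, hg1, hg2, hg3, hg4⟩ := exists_nonalt_rank' Q hQ v hli horth hv (2 * r) (by omega) (by
          rw [← hr]
          exact h3 _ htt')
        exact ⟨g, hg1, hg2, ⟨fun h => absurd h hA, fun h => absurd h hg3⟩, hg4, Or.inl hA⟩
    have hgm : g ∈ Cfsg.Omega F (⇑Q) := (even_rank Q hΩ g).2 (by rw [hg2]; exact even_two_mul r)
    obtain ⟨c, hc⟩ := isConj_iff.1 (conj_of_inv Q hQ hΩ t ⟨g, hgm⟩ htt' hg1 hcon (by rw [hr, hg2]) hg3)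
    exact ⟨c, by rw [hc]; exact subset_closure ⟨Subtype.ext hg1, hg4⟩⟩

/-! ### Plus type -/

/-- a frame: `a, a'` and `b, c` hyperbolic pairs (`a'` any vector), `v` totally singular in the complement -/
structure Frame (n : ℕ) where
  a : ι → F
  a' : ι → F
  b : ι → F
  c : ι → F
  v : Fin n → ι → F
  Qa : Q a = 0
  Qb : Q b = 0
  Qc : Q c = 0
  Qv : ∀ i, Q (v i) = 0
  aa' : polar Q a a' = 1
  bc : polar Q b c = 1
  ab : polar Q a b = 0
  ac : polar Q a c = 0
  ba' : polar Q b a' = 0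
  ca' : polar Q c a' = 0
  va : ∀ i, polar Q (v i) a = 0
  va' : ∀ i, polar Q (v i) a' = 0
  vb : ∀ i, polar Q (v i) b = 0
  vc : ∀ i, polar Q (v i) c = 0
  vv : ∀ i j, polar Q (v i) (v j) = 0
  li : LinearIndependent F v

namespace Frame

variable {Q} {n : ℕ} (R : Frame Q n)

theorem ca : polar Q R.c R.a = 0 := by rw [polar_comm]; exact R.ac
theorem ba : polar Q R.b R.a = 0 := by rw [polar_comm]; exact R.ab
theorem cb : polar Q R.c R.b = 1 := by rw [polar_comm]; exact R.bc

theorem polar_aa : polar Q R.a R.a = 0 := by rw [polar_self, R.Qa, smul_zero]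
theorem polar_bb : polar Q R.b R.b = 0 := by rw [polar_self, R.Qb, smul_zero]
theorem polar_cc : polar Q R.c R.c = 0 := by rw [polar_self, R.Qc, smul_zero]

/-- the totally singular space spanned by `v` -/
def T : Submodule F (ι → F) := Submodule.span F (Set.range R.v)

theorem polar_T {y : ι → F} (h : ∀ i, polar Q (R.v i) y = 0) {x : ι → F} (hx : x ∈ R.T) : polar Q x y = 0 := by
  have h1 : R.T ≤ LinearMap.ker ((polarBilin Q).flip y) := by
    unfold T
    rw [Submodule.span_le]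
    rintro _ ⟨i, rfl⟩
    rw [SetLike.mem_coe, LinearMap.mem_ker, LinearMap.flip_apply]
    exact h i
  exact h1 hx

theorem polar_TT {x y : ι → F} (hx : x ∈ R.T) (hy : y ∈ R.T) : polar Q x y = 0 := by
  refine R.polar_T (fun i => ?_) hx
  rw [polar_comm]
  exact R.polar_T (fun j => R.vv j i) hy

/-- the first element -/
def u : Cfsg.isometryGroup F (⇑Q) := siegelIso Q R.a R.b 1 R.Qa R.Qb R.ab

/-- the second element -/
def w : Cfsg.isometryGroup F (⇑Q) := siegelIso Q R.a R.c 1 R.Qa R.Qc R.ac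

theorem act_u (x : ι → F) : act R.u x = x + (polar Q R.a x • R.b - polar Q R.b x • R.a) := by
  rw [u, act_siegel, one_smul]

theorem act_w (x : ι → F) : act R.w x = x + (polar Q R.a x • R.c - polar Q R.c x • R.a) := by
  rw [w, act_siegel, one_smul]

theorem act_uw (x : ι → F) : act (R.u * R.w) x
    = x + (polar Q R.a x • (R.b + R.c - R.a) - (polar Q R.b x + polar Q R.c x) • R.a) := by
  rw [act_mul, act_u, act_w]
  simp only [polar_add_right, polar_sub_right, polar_smul_right, R.polar_aa, R.ac, R.ba, R.bc, smul_eq_mul]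
  funext i
  simp only [Pi.add_apply, Pi.sub_apply, Pi.smul_apply, smul_eq_mul]
  ring

theorem comm_uw : R.u * R.w = R.w * R.u := by
  apply act_ext
  intro x
  rw [act_uw, act_mul, act_w, act_u]
  simp only [polar_add_right, polar_sub_right, polar_smul_right, R.polar_aa, R.ab, R.ca, R.cb, smul_eq_mul]
  funext i
  simp only [Pi.add_apply, Pi.sub_apply, Pi.smul_apply, smul_eq_mul]
  ring

theorem u_sq [CharP F 2] : R.u * R.u = 1 := by
  have h2F : (2 : F) = 0 := CharTwo.two_eq_zero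
  apply act_ext
  intro x
  rw [act_mul, act_u, act_u, act_one]
  simp only [polar_add_right, polar_sub_right, polar_smul_right, R.polar_aa, R.ab, R.ba, R.polar_bb, smul_eq_mul]
  funext i
  simp only [Pi.add_apply, Pi.sub_apply, Pi.smul_apply, smul_eq_mul]
  linear_combination (polar Q R.a x * R.b i - polar Q R.b x * R.a i) * h2F

theorem w_sq [CharP F 2] : R.w * R.w = 1 := by
  have h2F : (2 : F) = 0 := CharTwo.two_eq_zero
  apply act_ext
  intro x
  rw [act_mul, act_w, act_w, act_one]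
  simp only [polar_add_right, polar_sub_right, polar_smul_right, R.polar_aa, R.ac, R.ca, R.polar_cc, smul_eq_mul]
  funext i
  simp only [Pi.add_apply, Pi.sub_apply, Pi.smul_apply, smul_eq_mul]
  linear_combination (polar Q R.a x * R.c i - polar Q R.c x * R.a i) * h2F

/-- existence of vectors with given products -/
theorem exists_polar (hQ : (polarBilin Q).Nondegenerate) {x y : ι → F} (h : LinearIndependent F ![x, y]) (s t : F) :
    ∃ z, polar Q x z = s ∧ polar Q y z = t := by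
  obtain ⟨z, hz⟩ := gramMap_surjective Q hQ ![x, y] h ![s, t]
  refine ⟨z, ?_, ?_⟩
  · have := congrFun hz 0
    rwa [gramMap_apply] at this
  · have := congrFun hz 1
    rwa [gramMap_apply] at this

theorem li_pair {x y z z' : ι → F} (h1 : polar Q x z = 1) (h2 : polar Q y z = 0) (h3 : polar Q x z' = 0)
    (h4 : polar Q y z' = 1) : LinearIndependent F ![x, y] := by
  rw [LinearIndependent.pair_iff]
  intro s t hst
  constructor
  · have h5 : polar Q (s • x + t • y) z = 0 := by rw [hst, polar_zero_left]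
    rwa [polar_add_left, polar_smul_left, polar_smul_left, h1, h2, smul_zero, add_zero, smul_eq_mul, mul_one] at h5
  · have h5 : polar Q (s • x + t • y) z' = 0 := by rw [hst, polar_zero_left]
    rwa [polar_add_left, polar_smul_left, polar_smul_left, h3, h4, smul_zero, zero_add, smul_eq_mul, mul_one] at h5

theorem li_ab : LinearIndependent F ![R.a, R.b] := li_pair R.aa' R.ba' R.ac R.bc
theorem li_ac : LinearIndependent F ![R.a, R.c] := li_pair R.aa' R.ca' R.ab R.cb
theorem li_as : LinearIndependent F ![R.a, R.b + R.c] :=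
  li_pair R.aa' (by rw [polar_add_left, R.ba', R.ca', add_zero]) R.ab
    (by rw [polar_add_left, R.polar_bb, R.cb, zero_add])

theorem range_pair (x y : ι → F) : Set.range ![x, y] = {x, y} := by
  rw [Matrix.range_cons, Matrix.range_cons, Matrix.range_empty, Set.union_empty, Set.singleton_union]

theorem resSp_u (hQ : (polarBilin Q).Nondegenerate) : resSp R.u = Submodule.span F (Set.range ![R.a, R.b]) := by
  rw [range_pair]
  apply le_antisymm
  · rintro _ ⟨x, rfl⟩
    rw [act_u, add_sub_cancel_left, Submodule.mem_span_pair]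
    exact ⟨-polar Q R.b x, polar Q R.a x, by rw [neg_smul]; abel⟩
  · rw [Submodule.span_le]
    rintro x (rfl | hx)
    · obtain ⟨z, h1, h2⟩ := exists_polar hQ R.li_ab 0 (-1)
      exact ⟨z, by rw [act_u, h1, h2]; simp⟩
    · rw [Set.mem_singleton_iff.1 hx]
      obtain ⟨z, h1, h2⟩ := exists_polar hQ R.li_ab 1 0
      exact ⟨z, by rw [act_u, h1, h2]; simp⟩

theorem resSp_w (hQ : (polarBilin Q).Nondegenerate) : resSp R.w = Submodule.span F (Set.range ![R.a, R.c]) := by
  rw [range_pair]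
  apply le_antisymm
  · rintro _ ⟨x, rfl⟩
    rw [act_w, add_sub_cancel_left, Submodule.mem_span_pair]
    exact ⟨-polar Q R.c x, polar Q R.a x, by rw [neg_smul]; abel⟩
  · rw [Submodule.span_le]
    rintro x (rfl | hx)
    · obtain ⟨z, h1, h2⟩ := exists_polar hQ R.li_ac 0 (-1)
      exact ⟨z, by rw [act_w, h1, h2]; simp⟩
    · rw [Set.mem_singleton_iff.1 hx]
      obtain ⟨z, h1, h2⟩ := exists_polar hQ R.li_ac 1 0
      exact ⟨z, by rw [act_w, h1, h2]; simp⟩

theorem resSp_uw (hQ : (polarBilin Q).Nondegenerate) :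
    resSp (R.u * R.w) = Submodule.span F (Set.range ![R.a, R.b + R.c]) := by
  rw [range_pair]
  apply le_antisymm
  · rintro _ ⟨x, rfl⟩
    rw [act_uw, add_sub_cancel_left, Submodule.mem_span_pair]
    refine ⟨-polar Q R.a x - (polar Q R.b x + polar Q R.c x), polar Q R.a x, ?_⟩
    funext i
    simp only [Pi.add_apply, Pi.sub_apply, Pi.smul_apply, smul_eq_mul]
    ring
  · have ha : R.a ∈ resSp (R.u * R.w) := by
      obtain ⟨z, h1, h2⟩ := exists_polar hQ R.li_as 0 (-1)
      rw [polar_add_left] at h2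
      exact ⟨z, by rw [act_uw, h1, h2]; simp⟩
    rw [Submodule.span_le]
    rintro x (rfl | hx)
    · exact ha
    · rw [Set.mem_singleton_iff.1 hx]
      obtain ⟨z, h1, h2⟩ := exists_polar hQ R.li_as 1 0
      rw [polar_add_left] at h2
      have h3 : R.b + R.c - R.a ∈ resSp (R.u * R.w) := ⟨z, by rw [act_uw, h1, h2]; simp⟩
      have h4 := Submodule.add_mem _ h3 ha
      rwa [sub_add_cancel] at h4

theorem finrank_pair {x y : ι → F} (h : LinearIndependent F ![x, y]) :
    finrank F (Submodule.span F (Set.range ![x, y])) = 2 := by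
  rw [finrank_span_eq_card h, Fintype.card_fin]

/-- products with `T` -/
theorem orth_pair {x y : ι → F} (hx : ∀ i, polar Q (R.v i) x = 0) (hy : ∀ i, polar Q (R.v i) y = 0) :
    ∀ s ∈ Submodule.span F (Set.range ![x, y]), ∀ t ∈ R.T, polar Q s t = 0 := by
  intro s hs t ht
  rw [range_pair, Submodule.mem_span_pair] at hs
  obtain ⟨p, q, rfl⟩ := hs
  rw [polar_add_left, polar_smul_left, polar_smul_left, polar_comm (⇑Q) x t, polar_comm (⇑Q) y t,
    R.polar_T hx ht, R.polar_T hy ht, smul_zero, smul_zero, add_zero]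

theorem disj_pair {x y z z' : ι → F} (h1 : polar Q x z = 1) (h2 : polar Q y z = 0) (h3 : polar Q x z' = 0)
    (h4 : polar Q y z' = 1) (hz : ∀ i, polar Q (R.v i) z = 0) (hz' : ∀ i, polar Q (R.v i) z' = 0)
    {S : Submodule F (ι → F)} (hS : S ≤ R.T) :
    Submodule.span F (Set.range ![x, y]) ⊓ S = ⊥ := by
  rw [eq_bot_iff]
  rintro s ⟨hs, hs'⟩
  rw [range_pair, SetLike.mem_coe, Submodule.mem_span_pair] at hs
  obtain ⟨p, q, rfl⟩ := hs
  have h5 := R.polar_T hz (hS hs')
  have h6 := R.polar_T hz' (hS hs')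
  rw [polar_add_left, polar_smul_left, polar_smul_left, h1, h2, smul_zero, add_zero, smul_eq_mul, mul_one] at h5
  rw [polar_add_left, polar_smul_left, polar_smul_left, h3, h4, smul_zero, zero_add, smul_eq_mul, mul_one] at h6
  rw [h5, h6, zero_smul, zero_smul, add_zero]
  exact Submodule.zero_mem _

theorem va_s (i : Fin n) : polar Q (R.v i) (R.b + R.c) = 0 := by rw [polar_add_right, R.vb, R.vc, add_zero]

variable (hQ : (polarBilin Q).Nondegenerate) {g : Cfsg.isometryGroup F (⇑Q)} (hg : resSp g ≤ R.T)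
include hQ hg

theorem orth_u : ∀ x ∈ resSp R.u, ∀ y ∈ resSp g, polar Q x y = 0 := by
  intro x hx y hy
  rw [R.resSp_u hQ] at hx
  exact R.orth_pair R.va R.vb x hx y (hg hy)

theorem orth_w : ∀ x ∈ resSp R.w, ∀ y ∈ resSp g, polar Q x y = 0 := by
  intro x hx y hy
  rw [R.resSp_w hQ] at hx
  exact R.orth_pair R.va R.vc x hx y (hg hy)

theorem orth_uw : ∀ x ∈ resSp (R.u * R.w), ∀ y ∈ resSp g, polar Q x y = 0 := by
  intro x hx y hy
  rw [R.resSp_uw hQ] at hx
  exact R.orth_pair R.va R.va_s x hx y (hg hy)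

theorem disj_u : resSp R.u ⊓ resSp g = ⊥ := by
  rw [R.resSp_u hQ]
  exact R.disj_pair R.aa' R.ba' R.ac R.bc R.va' R.vc hg

theorem disj_w : resSp R.w ⊓ resSp g = ⊥ := by
  rw [R.resSp_w hQ]
  exact R.disj_pair R.aa' R.ca' R.ab R.cb R.va' R.vb hg

theorem disj_uw : resSp (R.u * R.w) ⊓ resSp g = ⊥ := by
  rw [R.resSp_uw hQ]
  exact R.disj_pair R.aa' (by rw [polar_add_left, R.ba', R.ca', add_zero]) R.ab
    (by rw [polar_add_left, R.polar_bb, R.cb, zero_add]) R.va' R.vb hg

theorem rank_ug : finrank F (resSp (R.u * g)) = 2 + finrank F (resSp g) := by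
  rw [finrank_resSp_mul hQ (R.orth_u hQ hg) (R.disj_u hQ hg), R.resSp_u hQ, finrank_pair R.li_ab]

theorem rank_wg : finrank F (resSp (R.w * g)) = 2 + finrank F (resSp g) := by
  rw [finrank_resSp_mul hQ (R.orth_w hQ hg) (R.disj_w hQ hg), R.resSp_w hQ, finrank_pair R.li_ac]

theorem rank_uwg : finrank F (resSp (R.u * R.w * g)) = 2 + finrank F (resSp g) := by
  rw [finrank_resSp_mul hQ (R.orth_uw hQ hg) (R.disj_uw hQ hg), R.resSp_uw hQ, finrank_pair R.li_as]

omit hg in
theorem alt_u : Alt R.u := by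
  intro x hx
  rw [R.resSp_u hQ, range_pair, Submodule.mem_span_pair] at hx
  obtain ⟨p, q, rfl⟩ := hx
  rw [map_add', QuadraticMap.map_smul, QuadraticMap.map_smul, R.Qa, R.Qb, polar_smul_left, polar_smul_right, R.ab]
  simp

omit hg in
theorem alt_w : Alt R.w := by
  intro x hx
  rw [R.resSp_w hQ, range_pair, Submodule.mem_span_pair] at hx
  obtain ⟨p, q, rfl⟩ := hx
  rw [map_add', QuadraticMap.map_smul, QuadraticMap.map_smul, R.Qa, R.Qc, polar_smul_left, polar_smul_right, R.ac]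
  simp

omit hg in
theorem not_alt_uw : ¬ Alt (R.u * R.w) := by
  intro h
  have h1 := h (R.b + R.c) (by
    rw [R.resSp_uw hQ, range_pair]
    exact Submodule.subset_span (Or.inr rfl))
  rw [map_add', R.Qb, R.Qc, R.bc, zero_add, zero_add] at h1
  exact one_ne_zero h1

end Frame

/-- **Plus type.** -/
theorem em_of_frame [Finite F] [CharP F 2] (hQ : (polarBilin Q).Nondegenerate)
    (hG : Gen Q) (hΩ : ∀ g : Cfsg.isometryGroup F (⇑Q),
      g ∈ commutator (Cfsg.isometryGroup F (⇑Q)) ↔ dsign Q g = 1) {n : ℕ} (R : Frame Q n)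
    (hn : Fintype.card ι = 2 * (n + 2)) : EM ↥(Cfsg.Omega F (⇑Q)) := by
  have hr2 : ∀ g : Cfsg.isometryGroup F (⇑Q), finrank F (resSp g) = 2 → g ∈ Cfsg.Omega F (⇑Q) :=
    fun g hg => (even_rank Q hΩ g).2 (by rw [hg]; exact even_two)
  have hu : R.u ∈ Cfsg.Omega F (⇑Q) := hr2 _ (by rw [R.resSp_u hQ, Frame.finrank_pair R.li_ab])
  have hw : R.w ∈ Cfsg.Omega F (⇑Q) := hr2 _ (by rw [R.resSp_w hQ, Frame.finrank_pair R.li_ac])
  refine em_of_commuting ({⟨R.u, hu⟩, ⟨R.w, hw⟩} ∪
    {g : ↥(Cfsg.Omega F (⇑Q)) | g * g = 1 ∧ resSp (g : Cfsg.isometryGroup F (⇑Q)) ≤ R.T}) ?_ ?_ ?_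
  · rintro x ((rfl | hx) | hx)
    · exact Subtype.ext R.u_sq
    · rw [Set.mem_singleton_iff.1 hx]
      exact Subtype.ext R.w_sq
    · exact hx.1
  · have h1 : ∀ g : ↥(Cfsg.Omega F (⇑Q)), resSp (g : Cfsg.isometryGroup F (⇑Q)) ≤ R.T →
        (⟨R.u, hu⟩ : ↥(Cfsg.Omega F (⇑Q))) * g = g * ⟨R.u, hu⟩ := fun g hg =>
      Subtype.ext (comm_of_orth hQ (R.orth_u hQ hg))
    have h2 : ∀ g : ↥(Cfsg.Omega F (⇑Q)), resSp (g : Cfsg.isometryGroup F (⇑Q)) ≤ R.T →
        (⟨R.w, hw⟩ : ↥(Cfsg.Omega F (⇑Q))) * g = g * ⟨R.w, hw⟩ := fun g hg =>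
      Subtype.ext (comm_of_orth hQ (R.orth_w hQ hg))
    have h3 : (⟨R.u, hu⟩ : ↥(Cfsg.Omega F (⇑Q))) * ⟨R.w, hw⟩ = ⟨R.w, hw⟩ * ⟨R.u, hu⟩ := Subtype.ext R.comm_uw
    rintro x ((rfl | hx) | hx) y ((rfl | hy) | hy)
    · rfl
    · rw [Set.mem_singleton_iff.1 hy]; exact h3
    · exact h1 y hy.2
    · rw [Set.mem_singleton_iff.1 hx]; exact h3.symm
    · rw [Set.mem_singleton_iff.1 hx, Set.mem_singleton_iff.1 hy]
    · rw [Set.mem_singleton_iff.1 hx]; exact h2 y hy.2
    · exact (h1 x hx.2).symm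
    · rw [Set.mem_singleton_iff.1 hy]; exact (h2 x hx.2).symm
    · exact Subtype.ext (comm_of_orth hQ fun a ha b hb => R.polar_TT (hx.2 ha) (hy.2 hb))
  · intro t ht
    have htt : t * t = 1 := sq_of_orderOf ht
    have htt' : (t : Cfsg.isometryGroup F (⇑Q)) * t = 1 := congrArg Subtype.val htt
    obtain ⟨r, hr⟩ := even_of_omega Q hΩ t
    have hr1 : 1 ≤ r := by
      by_contra h0
      have h6 : 0 < finrank F (resSp (t : Cfsg.isometryGroup F (⇑Q))) := by
        rw [finrank_resSp_pos]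
        intro h7
        exact ne_one_of_orderOf ht (Subtype.ext h7)
      omega
    have hle := two_mul_finrank_res_le Q (t : Cfsg.isometryGroup F (⇑Q)) htt'
    rw [hr, hn] at hle
    obtain ⟨g, hg1, hg2, hg3, hg4⟩ := exists_alt_rank' Q hQ R.v R.li R.vv R.Qv (r - 1) (by omega)
    change resSp g ≤ R.T at hg4
    have hgm : g ∈ Cfsg.Omega F (⇑Q) := (even_rank Q hΩ g).2 (by rw [hg2]; exact even_two_mul _)
    -- the generators
    set S := ({⟨R.u, hu⟩, ⟨R.w, hw⟩} ∪
      {g : ↥(Cfsg.Omega F (⇑Q)) | g * g = 1 ∧ resSp (g : Cfsg.isometryGroup F (⇑Q)) ≤ R.T}) with hS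
    have uS : (⟨R.u, hu⟩ : ↥(Cfsg.Omega F (⇑Q))) ∈ closure S := subset_closure (Or.inl (Or.inl rfl))
    have wS : (⟨R.w, hw⟩ : ↥(Cfsg.Omega F (⇑Q))) ∈ closure S := subset_closure (Or.inl (Or.inr rfl))
    have gS : (⟨g, hgm⟩ : ↥(Cfsg.Omega F (⇑Q))) ∈ closure S := subset_closure (Or.inr ⟨Subtype.ext hg1, hg4⟩)
    have hmulS : ∀ (x y : Cfsg.isometryGroup F (⇑Q)) (hx : x ∈ Cfsg.Omega F (⇑Q)) (hy : y ∈ Cfsg.Omega F (⇑Q))
        (hxy : x * y ∈ Cfsg.Omega F (⇑Q)), (⟨x, hx⟩ : ↥(Cfsg.Omega F (⇑Q))) ∈ closure S →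
        (⟨y, hy⟩ : ↥(Cfsg.Omega F (⇑Q))) ∈ closure S → (⟨x * y, hxy⟩ : ↥(Cfsg.Omega F (⇑Q))) ∈ closure S := by
      intro x y hx hy hxy h1 h2
      have h3 := mul_mem h1 h2
      rwa [MulMemClass.mk_mul_mk] at h3
    have cug := comm_of_orth hQ (R.orth_u hQ hg4)
    have cwg := comm_of_orth hQ (R.orth_w hQ hg4)
    have cuw := R.comm_uw
    have sug : R.u * g * (R.u * g) = 1 := by
      calc R.u * g * (R.u * g) = R.u * (g * R.u) * g := by group
        _ = (R.u * R.u) * (g * g) := by rw [← cug]; group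
        _ = 1 := by rw [R.u_sq, hg1, mul_one]
    have swg : R.w * g * (R.w * g) = 1 := by
      calc R.w * g * (R.w * g) = R.w * (g * R.w) * g := by group
        _ = (R.w * R.w) * (g * g) := by rw [← cwg]; group
        _ = 1 := by rw [R.w_sq, hg1, mul_one]
    have suw : R.u * R.w * (R.u * R.w) = 1 := by
      calc R.u * R.w * (R.u * R.w) = R.u * (R.w * R.u) * R.w := by group
        _ = (R.u * R.u) * (R.w * R.w) := by rw [← cuw]; group
        _ = 1 := by rw [R.u_sq, R.w_sq, mul_one]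
    have suwg : R.u * R.w * g * (R.u * R.w * g) = 1 := by
      calc R.u * R.w * g * (R.u * R.w * g) = R.u * R.w * (g * R.u) * R.w * g := by group
        _ = R.u * R.w * R.u * (g * R.w) * g := by rw [← cug]; group
        _ = (R.u * R.w * (R.u * R.w)) * (g * g) := by rw [← cwg]; group
        _ = 1 := by rw [suw, hg1, mul_one]
    have ugm : R.u * g ∈ Cfsg.Omega F (⇑Q) := mul_mem hu hgm
    have wgm : R.w * g ∈ Cfsg.Omega F (⇑Q) := mul_mem hw hgm
    have uwm : R.u * R.w ∈ Cfsg.Omega F (⇑Q) := mul_mem hu hw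
    have uwgm : R.u * R.w * g ∈ Cfsg.Omega F (⇑Q) := mul_mem uwm hgm
    have ugS := hmulS R.u g hu hgm ugm uS gS
    have wgS := hmulS R.w g hw hgm wgm wS gS
    have uwS := hmulS R.u R.w hu hw uwm uS wS
    have uwgS := hmulS (R.u * R.w) g uwm hgm uwgm uwS gS
    by_cases hA : Alt (t : Cfsg.isometryGroup F (⇑Q))
    · have hug : Alt (R.u * g) := (alt_mul hQ (R.orth_u hQ hg4) (R.disj_u hQ hg4)).2 ⟨R.alt_u hQ, hg3⟩
      by_cases hlt : 2 * (2 * r) < Fintype.card ι
      · obtain ⟨c, hc⟩ := isConj_iff.1 (conj_of_inv Q hQ hΩ t ⟨R.u * g, ugm⟩ htt' sug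
          (Or.inr (by rw [hr]; exact hlt))
          (by rw [R.rank_ug hQ hg4, hr, hg2]; omega)
          ⟨fun _ => hug, fun _ => hA⟩)
        exact ⟨c, by rw [hc]; exact ugS⟩
      · -- the two classes of maximal rank
        obtain ⟨h, hh⟩ := isConj_iff.1 ((isConj_iff_rank_alt Q hQ (t : Cfsg.isometryGroup F (⇑Q)) (R.u * g) htt' sug).2
          ⟨by rw [R.rank_ug hQ hg4, hr, hg2]; omega, ⟨fun _ => hug, fun _ => hA⟩⟩)
        by_cases hs : dsign Q h = 1
        · refine ⟨⟨h, (hΩ h).2 hs⟩, ?_⟩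
          have h1 : (⟨h, (hΩ h).2 hs⟩ : ↥(Cfsg.Omega F (⇑Q))) * t * (⟨h, (hΩ h).2 hs⟩ : ↥(Cfsg.Omega F (⇑Q)))⁻¹
              = ⟨R.u * g, ugm⟩ := Subtype.ext hh
          rw [h1]
          exact ugS
        · have h2F : (2 : F) = 0 := CharTwo.two_eq_zero
          have hQs : Q (R.b + R.c) = 1 := by rw [map_add', R.Qb, R.Qc, R.bc, zero_add, zero_add]
          have hQs0 : Q (R.b + R.c) ≠ 0 := by rw [hQs]; exact one_ne_zero
          obtain ⟨k, hk⟩ : ∃ k, k = reflIso Q (R.b + R.c) hQs0 := ⟨_, rfl⟩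
          have hka : ∀ x, act k x = x - polar Q (R.b + R.c) x • (R.b + R.c) := by
            intro x
            rw [hk, act_refl, hQs, inv_one, one_mul]
          have hks : dsign Q k = -1 := by rw [hk]; exact dsign_refl Q hQ _ _
          have hku : k * R.u = R.w * k := by
            apply act_ext
            intro x
            rw [act_mul, act_mul, hka, hka, R.act_u, R.act_w]
            simp only [polar_add_right, polar_sub_right, polar_smul_right, polar_add_left, R.polar_bb, R.polar_cc,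
              R.ba, R.ca, R.bc, R.cb, R.ab, R.ac, smul_eq_mul]
            funext i
            simp only [Pi.add_apply, Pi.sub_apply, Pi.smul_apply, smul_eq_mul]
            ring_nf
            linear_combination (-(polar Q R.a x * R.c i) - polar Q R.b x * R.a i) * h2F
          have hkg : k * g = g * k := by
            refine comm_of_orth hQ fun x hx y hy => ?_
            obtain ⟨z, rfl⟩ := hx
            rw [hka, sub_sub_cancel_left, polar_neg_left, polar_smul_left, polar_comm (⇑Q) (R.b + R.c) y,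
              R.polar_T R.va_s (hg4 hy), smul_zero, neg_zero]
          have hkh : dsign Q (k * h) = 1 := by
            rw [dsign_mul_of_Gen Q hQ hG, hks]
            rcases Int.units_eq_one_or (dsign Q h) with h3 | h3
            · exact absurd h3 hs
            · rw [h3]; decide
          refine ⟨⟨k * h, (hΩ _).2 hkh⟩, ?_⟩
          have h1 : (⟨k * h, (hΩ _).2 hkh⟩ : ↥(Cfsg.Omega F (⇑Q))) * t * (⟨k * h, (hΩ _).2 hkh⟩ : ↥(Cfsg.Omega F (⇑Q)))⁻¹
              = ⟨R.w * g, wgm⟩ := by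
            apply Subtype.ext
            change k * h * (t : Cfsg.isometryGroup F (⇑Q)) * (k * h)⁻¹ = R.w * g
            calc k * h * (t : Cfsg.isometryGroup F (⇑Q)) * (k * h)⁻¹
                = k * (h * (t : Cfsg.isometryGroup F (⇑Q)) * h⁻¹) * k⁻¹ := by group
              _ = (k * R.u) * g * k⁻¹ := by rw [hh]; group
              _ = R.w * (k * g) * k⁻¹ := by rw [hku]; group
              _ = R.w * g := by rw [hkg]; group
          rw [h1]
          exact wgS
    · have huw : ¬ Alt (R.u * R.w * g) := fun h =>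
        R.not_alt_uw hQ ((alt_mul hQ (R.orth_uw hQ hg4) (R.disj_uw hQ hg4)).1 h).1
      obtain ⟨c, hc⟩ := isConj_iff.1 (conj_of_inv Q hQ hΩ t ⟨R.u * R.w * g, uwgm⟩ htt' suwg
        (Or.inl hA)
        (by rw [R.rank_uwg hQ hg4, hr, hg2]; omega)
        ⟨fun h => absurd h hA, fun h => absurd h huw⟩)
      exact ⟨c, by rw [hc]; exact uwgS⟩

end Cfsg.Agent.H731.EMO
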