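import Mathlib
import Cfsg.Agent.H731.EM.OrthEven
import Cfsg.Agent.H277.EM.Crow
import Cfsg.Agent.S2096
import Cfsg.Agent.S2097
import Cfsg.Agent.S2099

/-!
# Orthogonal groups in characteristic two: the rows of S2243 (helper731)
-/

set_option autoImplicit false
set_option linter.unusedSectionVars false

namespace Cfsg.Agent.H731.EMO

open QuadraticMap Matrix Module Subgroup
open Cfsg.Agent.ClassicalGeometry.Reflection
open Cfsg.Agent.ClassicalGeometry.OrthCharTwo
open Cfsg.Agent.ClassicalGeometry.OrthDickson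
open Cfsg.Agent.LieClassical.OrthForms
open Cfsg.Agent.H177.InvolGroup
open Cfsg.Agent.H177.InvolExist
open Cfsg.Agent.H177.InvolCount
open Cfsg.Agent.H177.InvolForms
open Cfsg.Agent.H177.OmegaSign
open Cfsg.Agent.H177.OmegaClasses
open Cfsg.Agent.H277.MI

universe u

theorem charP_of_even {F : Type*} [Field F] [Fintype F] (hF : Even (Fintype.card F)) : CharP F 2 := by
  have h1 : ringChar F = 2 := (FiniteField.even_card_iff_char_two (F := F)).2 (Nat.even_iff.1 hF)
  rw [← h1]
  exact ringChar.charP F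

/-- from `Ω` to `PΩ` -/
theorem em_pomega {ι : Type} [Fintype ι] [DecidableEq ι] {F : Type*} [Field F] [Fintype F] [CharP F 2]
    {Q : QuadraticForm F (ι → F)} (hQ : (polarBilin Q).Nondegenerate) (hn : 3 ≤ Fintype.card ι)
    (hs : ∃ u : ι → F, u ≠ 0 ∧ Q u = 0) (h : EM ↥(Cfsg.Omega F (⇑Q))) : EM (Cfsg.POmega F (⇑Q)) := by
  have hc : Subgroup.center (Cfsg.Omega F (⇑Q)) = ⊥ :=
    Cfsg.Agent.LieClassical.OrthCenter.center_omega_eq_bot_char_two CharTwo.two_eq_zero hQ hn hs
  have hinj : Function.Injective (QuotientGroup.mk' (Subgroup.center (Cfsg.Omega F (⇑Q)))) := by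
    rw [← MonoidHom.ker_eq_bot_iff, QuotientGroup.ker_mk']
    exact hc
  exact EM.congr (MulEquiv.ofBijective (QuotientGroup.mk' _) ⟨hinj, QuotientGroup.mk'_surjective _⟩).symm h

/-- the vectors `y_j` -/
def py (m : ℕ) (F : Type*) [Field F] (j : Fin m) : Fin m ⊕ Fin m → F := Pi.single (Sum.inr j) 1

theorem Q_py (m : ℕ) (F : Type*) [Field F] (j : Fin m) : plusForm m F (py m F j) = 0 := by
  rw [coe_plusForm, quadFormPlus_apply]
  exact Finset.sum_eq_zero fun i _ => by rw [py, Pi.single_eq_of_ne Sum.inl_ne_inr, zero_mul]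

theorem polar_xy (m : ℕ) (F : Type*) [Field F] (i j : Fin m) :
    polar (plusForm m F) (px m F i) (py m F j) = if i = j then 1 else 0 := by
  rw [polar_plusForm]
  have h1 : ∀ k : Fin m, px m F i (.inl k) * py m F j (.inr k) + py m F j (.inl k) * px m F i (.inr k)
      = if k = i then (if i = j then 1 else 0) else 0 := by
    intro k
    rw [px, py, Pi.single_eq_of_ne (Sum.inl_ne_inr (a := k) (b := j)), zero_mul, add_zero, Pi.single_apply,
      Pi.single_apply]
    simp only [Sum.inl.injEq, Sum.inr.injEq]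
    by_cases hk : k = i
    · rw [hk]; simp
    · simp [hk]
  rw [Finset.sum_congr rfl fun k _ => h1 k, Finset.sum_ite_eq' Finset.univ i]
  simp

theorem polar_yx (m : ℕ) (F : Type*) [Field F] (i j : Fin m) :
    polar (plusForm m F) (py m F j) (px m F i) = if i = j then 1 else 0 := by
  rw [polar_comm, polar_xy]

theorem polar_yy (m : ℕ) (F : Type*) [Field F] (i j : Fin m) :
    polar (plusForm m F) (py m F i) (py m F j) = 0 := by
  rw [polar_plusForm]
  exact Finset.sum_eq_zero fun k _ => by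
    rw [py, py, Pi.single_eq_of_ne (Sum.inl_ne_inr (a := k) (b := i)),
      Pi.single_eq_of_ne (Sum.inl_ne_inr (a := k) (b := j)), zero_mul, zero_mul, add_zero]

/-- the frame of the plus form -/
def plusFrame (n : ℕ) (F : Type*) [Field F] : Frame (plusForm (n + 2) F) n where
  a := px (n + 2) F 0
  a' := py (n + 2) F 0
  b := px (n + 2) F 1
  c := py (n + 2) F 1
  v := fun i => px (n + 2) F i.succ.succ
  Qa := Q_px _ _
  Qb := Q_px _ _
  Qc := Q_py _ _ _
  Qv := fun i => Q_px _ _
  aa' := by rw [polar_xy, if_pos rfl]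
  bc := by rw [polar_xy, if_pos rfl]
  ab := polar_px _ _ _
  ac := by rw [polar_xy, if_neg (by intro h; exact absurd (congrArg Fin.val h) (by simp))]
  ba' := by rw [polar_xy, if_neg (by intro h; exact absurd (congrArg Fin.val h) (by simp))]
  ca' := polar_yy _ _ _ _
  va := fun i => polar_px _ _ _
  va' := fun i => by rw [polar_xy, if_neg (by intro h; exact absurd (congrArg Fin.val h) (by simp))]
  vb := fun i => polar_px _ _ _
  vc := fun i => by rw [polar_xy, if_neg (by intro h; exact absurd (congrArg Fin.val h) (by simp))]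
  vv := fun i j => polar_px _ _ _
  li := (linearIndependent_px (n + 2)).comp (fun i : Fin n => i.succ.succ)
    (fun i j h => Fin.succ_injective _ (Fin.succ_injective _ h))

/-- **The elementary abelian subgroup, plus type.** -/
theorem em_plus {F : Type} [Field F] [Fintype F] (hF : Even (Fintype.card F)) {m : ℕ} (hm : 4 ≤ m) :
    EM (Cfsg.POmega F (Cfsg.quadFormPlus m F)) := by
  have := charP_of_even hF
  obtain ⟨n, rfl⟩ : ∃ n, m = n + 2 := ⟨m - 2, by omega⟩
  rw [← coe_plusForm]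
  have hQ := plus_nondegenerate (n + 2) F
  have hcard : Fintype.card (Fin (n + 2) ⊕ Fin (n + 2)) = 2 * (n + 2) := by
    rw [Fintype.card_sum, Fintype.card_fin, two_mul]
  have hgood : (∃ θ : F, θ ≠ 0 ∧ θ ≠ 1) ∨ Fintype.card (Fin (n + 2) ⊕ Fin (n + 2)) ≠ 4 := by
    right
    rw [hcard]
    omega
  have hG := gen_of_good (plusForm (n + 2) F) hQ hgood
  have hΩ := mem_commutator_iff_good (plusForm (n + 2) F) hQ hgood
  refine em_pomega hQ (by rw [hcard]; omega) ⟨px (n + 2) F 0, ?_, Q_px _ _⟩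
    (em_of_frame (plusForm (n + 2) F) hQ hG hΩ (plusFrame n F) hcard)
  intro h
  have h1 := congrFun h (Sum.inl 0)
  simp [px] at h1

/-- **The elementary abelian subgroup, minus type.** -/
theorem em_minus {F : Type} [Field F] [Fintype F] (hF : Even (Fintype.card F)) {m : ℕ} (hm : 4 ≤ m) (a b : F)
    (hab : ∀ z₁ z₂ : F, z₁ ^ 2 + a * z₁ * z₂ + b * z₂ ^ 2 = 0 → z₁ = 0 ∧ z₂ = 0) :
    EM (Cfsg.POmega F (Cfsg.quadFormMinus (m - 1) F a b)) := by
  have := charP_of_even hF
  obtain ⟨k, hk⟩ : ∃ k, m - 1 = k + 1 := ⟨m - 2, by omega⟩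
  rw [hk, ← coe_minusForm]
  have hQ := minus_nondegenerate a b (k + 1) hab
  have hcard : Fintype.card ((Fin (k + 1) ⊕ Fin (k + 1)) ⊕ Fin 2) = 2 * (k + 1 + 1) := by
    simp only [Fintype.card_sum, Fintype.card_fin]
    omega
  have hΩ := mem_commutator_iff_good (minusForm (k + 1) F a b) hQ (Or.inr (by rw [hcard]; omega))
  refine em_pomega hQ (by rw [hcard]; omega) ⟨mx (k + 1) F 0, ?_, Q_mx _ _ _ _⟩ ?_
  · intro h
    have h1 := congrFun h (Sum.inl (Sum.inl 0))
    simp [mx] at h1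
  refine em_omega_T (minusForm (k + 1) F a b) hQ hΩ (mxy (k + 1) F) (linearIndependent_mxy (k + 1))
    (polar_mxy a b (k + 1)) (Q_mxy a b (k + 1)) ?_ ?_ ?_
  · intro g hg
    have h1 := two_mul_finrank_res_le _ g hg
    rw [hcard] at h1
    omega
  · intro g hg ha
    exact finrank_le_of_singular a b (k + 1) hab (resSp g) ha
  · intro g hg ha
    have h1 := finrank_le_of_singular a b (k + 1) hab (resSp g) ha
    rw [hcard]
    omega

theorem gcd_odd {d q l : ℕ} (hq : Even q) (hl : l ≠ 0) (hq0 : 0 < q) : Odd (Nat.gcd d (q ^ l - 1)) := by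
  have h1 : Even (q ^ l) := (Nat.even_pow' hl).2 hq
  have h2 : 0 < q ^ l := Nat.pow_pos hq0
  have h3 : Odd (q ^ l - 1) := by
    obtain ⟨r, hr⟩ := h1
    exact ⟨r - 1, by omega⟩
  exact h3.of_dvd_nat (Nat.gcd_dvd_right _ _)

/-- **Row: minus type.** -/
theorem crow_minus_even {F : Type} [Field F] [Fintype F] (hF : Even (Fintype.card F)) {m : ℕ} (hm : 4 ≤ m) (a b : F)
    (hab : ∀ z₁ z₂ : F, z₁ ^ 2 + a * z₁ * z₂ + b * z₂ ^ 2 = 0 → z₁ = 0 ∧ z₂ = 0)
    {L : Type u} [Group L] (e : L ≃* Cfsg.POmega F (Cfsg.quadFormMinus (m - 1) F a b)) : CRow L := by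
  refine CRow.congr e (CRow.of_noCov ?_ (em_minus hF hm a b hab))
  refine noCov_of_cyclic (Cfsg.Agent.S2099.result rfl m hm a b hab) ?_
  have h1 : Even (Fintype.card F ^ m) := (Nat.even_pow' (by omega)).2 hF
  exact (h1.add_one).of_dvd_nat (Nat.gcd_dvd_right _ _)

/-- **Row: plus type.** -/
theorem crow_plus_even {F : Type} [Field F] [Fintype F] (hF : Even (Fintype.card F)) {m : ℕ} (hm : 4 ≤ m)
    (h : ¬ (m = 4 ∧ Fintype.card F = 2))
    {L : Type u} [Group L] (e : L ≃* Cfsg.POmega F (Cfsg.quadFormPlus m F)) : CRow L := by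
  refine CRow.congr e (CRow.of_noCov ?_ (em_plus hF hm))
  have h1 : Odd (Nat.gcd 2 (Fintype.card F ^ m - 1)) := gcd_odd hF (by omega) Fintype.card_pos
  rcases Nat.even_or_odd m with he | ho
  · refine noCov_of_mult (Cfsg.Agent.S2097.result rfl m hm he h) ?_
    rw [Nat.card_eq_of_bijective _ Multiplicative.toAdd.bijective, Nat.card_prod, Nat.card_zmod]
    exact h1.mul h1
  · exact noCov_of_cyclic (Cfsg.Agent.S2096.result rfl m (by obtain ⟨r, hr⟩ := ho; omega) ho)
      (gcd_odd hF (by omega) Fintype.card_pos)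

end Cfsg.Agent.H731.EMO
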