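import Mathlib
import Cfsg.Agent.H731.EM.OrthEvenRows
import Cfsg.Agent.H731.EM.O8Core
import Cfsg.Agent.S2098

/-!
# S2243: the row `Ω⁺_8(2)` (helper731)
-/

set_option autoImplicit false
set_option linter.unusedSectionVars false

namespace Cfsg.Agent.H731.EMO

open QuadraticMap Matrix Module Subgroup
open Cfsg.Agent.ClassicalGeometry.Reflection
open Cfsg.Agent.ClassicalGeometry.OrthCharTwo
open Cfsg.Agent.ClassicalGeometry.OrthDickson
open Cfsg.Agent.LieClassical.OrthForms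
open Cfsg.Agent.H177.InvolGroup
open Cfsg.Agent.H177.InvolExist
open Cfsg.Agent.H177.InvolCount
open Cfsg.Agent.H177.InvolForms
open Cfsg.Agent.H177.OmegaSign
open Cfsg.Agent.H177.OmegaClasses
open Cfsg.Agent.H277.MI

universe u

variable {F : Type} [Field F]

/-- the form -/
abbrev Q8 (F : Type) [Field F] : QuadraticForm F (Fin 4 ⊕ Fin 4 → F) := plusForm 4 F

/-- frames without a third part -/
def mk0 {a a' b c : Fin 4 ⊕ Fin 4 → F} (Qa : Q8 F a = 0) (Qb : Q8 F b = 0) (Qc : Q8 F c = 0)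
    (aa' : polar (Q8 F) a a' = 1) (bc : polar (Q8 F) b c = 1) (ab : polar (Q8 F) a b = 0)
    (ac : polar (Q8 F) a c = 0) (ba' : polar (Q8 F) b a' = 0) (ca' : polar (Q8 F) c a' = 0) : Frame (Q8 F) 0 where
  a := a
  a' := a'
  b := b
  c := c
  v := Fin.elim0
  Qa := Qa
  Qb := Qb
  Qc := Qc
  Qv := fun i => i.elim0
  aa' := aa'
  bc := bc
  ab := ab
  ac := ac
  ba' := ba'
  ca' := ca'
  va := fun i => i.elim0
  va' := fun i => i.elim0
  vb := fun i => i.elim0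
  vc := fun i => i.elim0
  vv := fun i => i.elim0
  li := linearIndependent_empty_type

local notation "e" => px 4 F
local notation "f" => py 4 F

theorem ee (i j : Fin 4) : polar (Q8 F) (e i) (e j) = 0 := polar_px 4 i j
theorem ff (i j : Fin 4) : polar (Q8 F) (f i) (f j) = 0 := polar_yy 4 F i j
theorem ef (i j : Fin 4) : polar (Q8 F) (e i) (f j) = if i = j then 1 else 0 := polar_xy 4 F i j
theorem fe (i j : Fin 4) : polar (Q8 F) (f j) (e i) = if i = j then 1 else 0 := polar_yx 4 F i j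
theorem Qe (i : Fin 4) : Q8 F (e i) = 0 := Q_px 4 i
theorem Qf (i : Fin 4) : Q8 F (f i) = 0 := Q_py 4 F i

/-- the first block -/
def R1 (F : Type) [Field F] : Frame (Q8 F) 0 :=
  mk0 (a := px 4 F 0) (a' := py 4 F 0) (b := px 4 F 1) (c := py 4 F 1) (Qe 0) (Qe 1) (Qf 1)
    (by rw [ef]; simp) (by rw [ef]; simp) (ee _ _) (by rw [ef]; simp) (by rw [ef]; simp) (ff _ _)

/-- the second block -/
def R2 (F : Type) [Field F] : Frame (Q8 F) 0 :=
  mk0 (a := px 4 F 2) (a' := py 4 F 2) (b := px 4 F 3) (c := py 4 F 3) (Qe 2) (Qe 3) (Qf 3)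
    (by rw [ef]; simp) (by rw [ef]; simp) (ee _ _) (by rw [ef]; simp [Fin.ext_iff])
    (by rw [ef]; simp [Fin.ext_iff]) (ff _ _)

/-- `e_0, e_2` -/
def R02 (F : Type) [Field F] : Frame (Q8 F) 0 :=
  mk0 (a := px 4 F 0) (a' := py 4 F 0) (b := px 4 F 2) (c := py 4 F 2) (Qe 0) (Qe 2) (Qf 2)
    (by rw [ef]; simp) (by rw [ef]; simp) (ee _ _) (by rw [ef]; simp [Fin.ext_iff])
    (by rw [ef]; simp [Fin.ext_iff]) (ff _ _)

/-- `e_1, e_2` -/
def R12 (F : Type) [Field F] : Frame (Q8 F) 0 :=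
  mk0 (a := px 4 F 1) (a' := py 4 F 1) (b := px 4 F 2) (c := py 4 F 2) (Qe 1) (Qe 2) (Qf 2)
    (by rw [ef]; simp) (by rw [ef]; simp) (ee _ _) (by rw [ef]; simp [Fin.ext_iff])
    (by rw [ef]; simp [Fin.ext_iff]) (ff _ _)

/-- `e_0, e_1 + e_2` -/
def Ra (F : Type) [Field F] : Frame (Q8 F) 0 :=
  mk0 (a := px 4 F 0) (a' := py 4 F 0) (b := px 4 F 1 + px 4 F 2) (c := py 4 F 1) (Qe 0)
    (by rw [map_add', Qe, Qe, ee]; simp) (Qf 1)
    (by rw [ef]; simp) (by rw [polar_add_left, ef, ef]; simp [Fin.ext_iff]) (by rw [polar_add_right, ee, ee]; simp)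
    (by rw [ef]; simp [Fin.ext_iff])
    (by rw [polar_add_left, ef, ef]; simp [Fin.ext_iff]) (ff _ _)

/-- `e_1, e_0 + e_2` -/
def Rb (F : Type) [Field F] : Frame (Q8 F) 0 :=
  mk0 (a := px 4 F 1) (a' := py 4 F 1) (b := px 4 F 0 + px 4 F 2) (c := py 4 F 0) (Qe 1)
    (by rw [map_add', Qe, Qe, ee]; simp) (Qf 0)
    (by rw [ef]; simp) (by rw [polar_add_left, ef, ef]; simp [Fin.ext_iff]) (by rw [polar_add_right, ee, ee]; simp)
    (by rw [ef]; simp [Fin.ext_iff])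
    (by rw [polar_add_left, ef, ef]; simp [Fin.ext_iff]) (ff _ _)

/-- `e_0 + e_1, e_2` -/
def Rc (F : Type) [Field F] : Frame (Q8 F) 0 :=
  mk0 (a := px 4 F 0 + px 4 F 1) (a' := py 4 F 0) (b := px 4 F 2) (c := py 4 F 2)
    (by rw [map_add', Qe, Qe, ee]; simp) (Qe 2) (Qf 2)
    (by rw [polar_add_left, ef, ef]; simp [Fin.ext_iff]) (by rw [ef]; simp) (by rw [polar_add_left, ee, ee]; simp)
    (by rw [polar_add_left, ef, ef]; simp [Fin.ext_iff])
    (by rw [ef]; simp [Fin.ext_iff]) (ff _ _)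

/-- `e_0 + e_2, e_1 + e_2` -/
def Rd (F : Type) [Field F] : Frame (Q8 F) 0 :=
  mk0 (a := px 4 F 0 + px 4 F 2) (a' := py 4 F 0) (b := px 4 F 1 + px 4 F 2) (c := py 4 F 1)
    (by rw [map_add', Qe, Qe, ee]; simp) (by rw [map_add', Qe, Qe, ee]; simp) (Qf 1)
    (by rw [polar_add_left, ef, ef]; simp [Fin.ext_iff]) (by rw [polar_add_left, ef, ef]; simp [Fin.ext_iff])
    (by rw [polar_add_left, polar_add_right, polar_add_right, ee, ee, ee, ee]; simp)
    (by rw [polar_add_left, ef, ef]; simp [Fin.ext_iff])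
    (by rw [polar_add_left, ef, ef]; simp [Fin.ext_iff]) (ff _ _)

/-! ### Products -/

section prods

variable [CharP F 2]

theorem act_R1u (x : Fin 4 ⊕ Fin 4 → F) : act (R1 F).u x = x + (polar (Q8 F) (e 0) x • e 1 - polar (Q8 F) (e 1) x • e 0) :=
  (R1 F).act_u x
theorem act_R02u (x : Fin 4 ⊕ Fin 4 → F) : act (R02 F).u x = x + (polar (Q8 F) (e 0) x • e 2 - polar (Q8 F) (e 2) x • e 0) :=
  (R02 F).act_u x
theorem act_R12u (x : Fin 4 ⊕ Fin 4 → F) : act (R12 F).u x = x + (polar (Q8 F) (e 1) x • e 2 - polar (Q8 F) (e 2) x • e 1) :=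
  (R12 F).act_u x
theorem act_Rau (x : Fin 4 ⊕ Fin 4 → F) :
    act (Ra F).u x = x + (polar (Q8 F) (e 0) x • (e 1 + e 2) - polar (Q8 F) (e 1 + e 2) x • e 0) :=
  (Ra F).act_u x
theorem act_Rbu (x : Fin 4 ⊕ Fin 4 → F) :
    act (Rb F).u x = x + (polar (Q8 F) (e 1) x • (e 0 + e 2) - polar (Q8 F) (e 0 + e 2) x • e 1) :=
  (Rb F).act_u x
theorem act_Rcu (x : Fin 4 ⊕ Fin 4 → F) :
    act (Rc F).u x = x + (polar (Q8 F) (e 0 + e 1) x • e 2 - polar (Q8 F) (e 2) x • (e 0 + e 1)) :=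
  (Rc F).act_u x
theorem act_Rdu (x : Fin 4 ⊕ Fin 4 → F) :
    act (Rd F).u x = x + (polar (Q8 F) (e 0 + e 2) x • (e 1 + e 2) - polar (Q8 F) (e 1 + e 2) x • (e 0 + e 2)) :=
  (Rd F).act_u x

theorem prod_a : (R1 F).u * (R02 F).u = (Ra F).u := by
  apply act_ext
  intro x
  rw [act_mul, act_R1u, act_R02u, act_Rau]
  simp only [polar_add_right, polar_sub_right, polar_smul_right, polar_add_left, ee, smul_eq_mul]
  funext i
  simp only [Pi.add_apply, Pi.sub_apply, Pi.smul_apply, smul_eq_mul]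
  ring

theorem prod_b : (R1 F).u * (R12 F).u = (Rb F).u := by
  have h2F : (2 : F) = 0 := CharTwo.two_eq_zero
  apply act_ext
  intro x
  rw [act_mul, act_R1u, act_R12u, act_Rbu]
  simp only [polar_add_right, polar_sub_right, polar_smul_right, polar_add_left, ee, smul_eq_mul]
  funext i
  simp only [Pi.add_apply, Pi.sub_apply, Pi.smul_apply, smul_eq_mul]
  linear_combination (polar (Q8 F) (e 0) x * (e 1) i - polar (Q8 F) (e 1) x * (e 0) i) * h2F

theorem prod_c : (R02 F).u * (R12 F).u = (Rc F).u := by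
  apply act_ext
  intro x
  rw [act_mul, act_R02u, act_R12u, act_Rcu]
  simp only [polar_add_right, polar_sub_right, polar_smul_right, polar_add_left, ee, smul_eq_mul]
  funext i
  simp only [Pi.add_apply, Pi.sub_apply, Pi.smul_apply, smul_eq_mul]
  ring

theorem prod_d : (R1 F).u * (R02 F).u * (R12 F).u = (Rd F).u := by
  have h2F : (2 : F) = 0 := CharTwo.two_eq_zero
  apply act_ext
  intro x
  rw [act_mul, act_mul, act_R1u, act_R02u, act_R12u, act_Rdu]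
  simp only [polar_add_right, polar_sub_right, polar_smul_right, polar_add_left, ee, smul_eq_mul]
  funext i
  simp only [Pi.add_apply, Pi.sub_apply, Pi.smul_apply, smul_eq_mul]
  linear_combination (polar (Q8 F) (e 1) x * (e 2) i - polar (Q8 F) (e 2) x * (e 1) i) * h2F

theorem comm_a : (R1 F).u * (R02 F).u = (R02 F).u * (R1 F).u := by
  apply act_ext
  intro x
  rw [act_mul, act_mul, act_R1u, act_R02u, act_R02u, act_R1u]
  simp only [polar_add_right, polar_sub_right, polar_smul_right, polar_add_left, ee, smul_eq_mul]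
  funext i
  simp only [Pi.add_apply, Pi.sub_apply, Pi.smul_apply, smul_eq_mul]
  ring

theorem comm_b : (R1 F).u * (R12 F).u = (R12 F).u * (R1 F).u := by
  apply act_ext
  intro x
  rw [act_mul, act_mul, act_R1u, act_R12u, act_R12u, act_R1u]
  simp only [polar_add_right, polar_sub_right, polar_smul_right, polar_add_left, ee, smul_eq_mul]
  funext i
  simp only [Pi.add_apply, Pi.sub_apply, Pi.smul_apply, smul_eq_mul]
  ring

theorem comm_c : (R02 F).u * (R12 F).u = (R12 F).u * (R02 F).u := by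
  apply act_ext
  intro x
  rw [act_mul, act_mul, act_R02u, act_R12u, act_R12u, act_R02u]
  simp only [polar_add_right, polar_sub_right, polar_smul_right, polar_add_left, ee, smul_eq_mul]
  funext i
  simp only [Pi.add_apply, Pi.sub_apply, Pi.smul_apply, smul_eq_mul]
  ring

end prods

/-! ### The blocks -/

/-- the first block -/
def B1 (F : Type) [Field F] : Submodule F (Fin 4 ⊕ Fin 4 → F) where
  carrier := {x | x (.inl 2) = 0 ∧ x (.inl 3) = 0 ∧ x (.inr 2) = 0 ∧ x (.inr 3) = 0}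
  add_mem' := by
    rintro x y ⟨h1, h2, h3, h4⟩ ⟨h5, h6, h7, h8⟩
    refine ⟨?_, ?_, ?_, ?_⟩ <;> rw [Pi.add_apply]
    · rw [h1, h5, add_zero]
    · rw [h2, h6, add_zero]
    · rw [h3, h7, add_zero]
    · rw [h4, h8, add_zero]
  zero_mem' := ⟨rfl, rfl, rfl, rfl⟩
  smul_mem' := by
    rintro c x ⟨h1, h2, h3, h4⟩
    refine ⟨?_, ?_, ?_, ?_⟩ <;> rw [Pi.smul_apply]
    · rw [h1, smul_zero]
    · rw [h2, smul_zero]
    · rw [h3, smul_zero]
    · rw [h4, smul_zero]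

/-- the second block -/
def B2 (F : Type) [Field F] : Submodule F (Fin 4 ⊕ Fin 4 → F) where
  carrier := {x | x (.inl 0) = 0 ∧ x (.inl 1) = 0 ∧ x (.inr 0) = 0 ∧ x (.inr 1) = 0}
  add_mem' := by
    rintro x y ⟨h1, h2, h3, h4⟩ ⟨h5, h6, h7, h8⟩
    refine ⟨?_, ?_, ?_, ?_⟩ <;> rw [Pi.add_apply]
    · rw [h1, h5, add_zero]
    · rw [h2, h6, add_zero]
    · rw [h3, h7, add_zero]
    · rw [h4, h8, add_zero]
  zero_mem' := ⟨rfl, rfl, rfl, rfl⟩
  smul_mem' := by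
    rintro c x ⟨h1, h2, h3, h4⟩
    refine ⟨?_, ?_, ?_, ?_⟩ <;> rw [Pi.smul_apply]
    · rw [h1, smul_zero]
    · rw [h2, smul_zero]
    · rw [h3, smul_zero]
    · rw [h4, smul_zero]

theorem e0_mem : (e 0) ∈ B1 F := by refine ⟨?_, ?_, ?_, ?_⟩ <;> simp [px]
theorem e1_mem : (e 1) ∈ B1 F := by refine ⟨?_, ?_, ?_, ?_⟩ <;> simp [px]
theorem f1_mem : (f 1) ∈ B1 F := by refine ⟨?_, ?_, ?_, ?_⟩ <;> simp [py]
theorem e2_mem : (e 2) ∈ B2 F := by refine ⟨?_, ?_, ?_, ?_⟩ <;> simp [px]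
theorem e3_mem : (e 3) ∈ B2 F := by refine ⟨?_, ?_, ?_, ?_⟩ <;> simp [px]
theorem f3_mem : (f 3) ∈ B2 F := by refine ⟨?_, ?_, ?_, ?_⟩ <;> simp [py]

theorem orth_blk : ∀ x ∈ B1 F, ∀ y ∈ B2 F, polar (Q8 F) x y = 0 := by
  rintro x ⟨h1, h2, h3, h4⟩ y ⟨h5, h6, h7, h8⟩
  rw [polar_plusForm, Fin.sum_univ_four, h1, h2, h3, h4, h5, h6, h7, h8]
  ring

theorem disj_blk : B1 F ⊓ B2 F = ⊥ := by
  rw [eq_bot_iff]
  rintro x ⟨⟨h1, h2, h3, h4⟩, h5, h6, h7, h8⟩
  rw [Submodule.mem_bot]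
  funext i
  rcases i with i | i <;> fin_cases i
  · exact h5
  · exact h6
  · exact h1
  · exact h2
  · exact h7
  · exact h8
  · exact h3
  · exact h4

theorem Frame.res_u_le {ι : Type} [Fintype ι] [DecidableEq ι] {Q : QuadraticForm F (ι → F)} {n : ℕ} (R : Frame Q n)
    {B : Submodule F (ι → F)} (ha : R.a ∈ B) (hb : R.b ∈ B) : resSp R.u ≤ B := by
  rintro _ ⟨x, rfl⟩
  rw [R.act_u, add_sub_cancel_left]
  exact B.sub_mem (B.smul_mem _ hb) (B.smul_mem _ ha)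

theorem Frame.res_w_le {ι : Type} [Fintype ι] [DecidableEq ι] {Q : QuadraticForm F (ι → F)} {n : ℕ} (R : Frame Q n)
    {B : Submodule F (ι → F)} (ha : R.a ∈ B) (hc : R.c ∈ B) : resSp R.w ≤ B := by
  rintro _ ⟨x, rfl⟩
  rw [R.act_w, add_sub_cancel_left]
  exact B.sub_mem (B.smul_mem _ hc) (B.smul_mem _ ha)

theorem Frame.res_uw_le {ι : Type} [Fintype ι] [DecidableEq ι] {Q : QuadraticForm F (ι → F)} {n : ℕ} (R : Frame Q n)
    {B : Submodule F (ι → F)} (ha : R.a ∈ B) (hb : R.b ∈ B) (hc : R.c ∈ B) : resSp (R.u * R.w) ≤ B := by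
  rintro _ ⟨x, rfl⟩
  rw [R.act_uw, add_sub_cancel_left]
  exact B.sub_mem (B.smul_mem _ (B.sub_mem (B.add_mem hb hc) ha)) (B.smul_mem _ ha)

theorem Frame.Qs {ι : Type} [Fintype ι] [DecidableEq ι] {Q : QuadraticForm F (ι → F)} {n : ℕ} (R : Frame Q n) :
    Q (R.b + R.c) = 1 := by rw [map_add', R.Qb, R.Qc, R.bc, zero_add, zero_add]

theorem Frame.Qs0 {ι : Type} [Fintype ι] [DecidableEq ι] {Q : QuadraticForm F (ι → F)} {n : ℕ} (R : Frame Q n) :
    Q (R.b + R.c) ≠ 0 := by rw [R.Qs]; exact one_ne_zero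

/-- the reflection exchanging `u` and `w` -/
def Frame.k {ι : Type} [Fintype ι] [DecidableEq ι] {Q : QuadraticForm F (ι → F)} {n : ℕ} (R : Frame Q n) :
    Cfsg.isometryGroup F (⇑Q) := reflIso Q (R.b + R.c) R.Qs0

theorem Frame.act_k {ι : Type} [Fintype ι] [DecidableEq ι] {Q : QuadraticForm F (ι → F)} {n : ℕ} (R : Frame Q n)
    (x : ι → F) : act R.k x = x - polar Q (R.b + R.c) x • (R.b + R.c) := by
  rw [Frame.k, act_refl, R.Qs, inv_one, one_mul]

theorem Frame.k_sq {ι : Type} [Fintype ι] [DecidableEq ι] {Q : QuadraticForm F (ι → F)} {n : ℕ} (R : Frame Q n) :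
    R.k * R.k = 1 := reflIso_mul_self Q _ _

theorem Frame.res_k_le {ι : Type} [Fintype ι] [DecidableEq ι] {Q : QuadraticForm F (ι → F)} {n : ℕ} (R : Frame Q n)
    {B : Submodule F (ι → F)} (hb : R.b ∈ B) (hc : R.c ∈ B) : resSp R.k ≤ B := by
  rintro _ ⟨x, rfl⟩
  rw [R.act_k, sub_sub_cancel_left]
  exact B.neg_mem (B.smul_mem _ (B.add_mem hb hc))

theorem Frame.k_u [CharP F 2] {ι : Type} [Fintype ι] [DecidableEq ι] {Q : QuadraticForm F (ι → F)} {n : ℕ}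
    (R : Frame Q n) : R.k * R.u = R.w * R.k := by
  have h2F : (2 : F) = 0 := CharTwo.two_eq_zero
  apply act_ext
  intro x
  rw [act_mul, act_mul, R.act_k, R.act_k, R.act_u, R.act_w]
  simp only [polar_add_right, polar_sub_right, polar_smul_right, polar_add_left, R.polar_bb, R.polar_cc,
    R.ba, R.ca, R.bc, R.cb, R.ab, R.ac, smul_eq_mul]
  funext i
  simp only [Pi.add_apply, Pi.sub_apply, Pi.smul_apply, smul_eq_mul]
  ring_nf
  linear_combination (-(polar Q R.a x * R.c i) - polar Q R.b x * R.a i) * h2F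

/-! ### The group `Ω` -/

section omega

variable [Fintype F] [CharP F 2]

theorem hQ8 : (polarBilin (Q8 F)).Nondegenerate := plus_nondegenerate 4 F

theorem card8 : Fintype.card (Fin 4 ⊕ Fin 4) = 8 := by
  rw [Fintype.card_sum, Fintype.card_fin]

theorem good8 : (∃ θ : F, θ ≠ 0 ∧ θ ≠ 1) ∨ Fintype.card (Fin 4 ⊕ Fin 4) ≠ 4 := Or.inr (by rw [card8]; omega)

theorem hG8 : Gen (Q8 F) := gen_of_good (Q8 F) hQ8 good8

theorem hΩ8 (g : Cfsg.isometryGroup F (⇑(Q8 F))) :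
    g ∈ commutator (Cfsg.isometryGroup F (⇑(Q8 F))) ↔ dsign (Q8 F) g = 1 :=
  mem_commutator_iff_good (Q8 F) hQ8 good8 g

/-- the group -/
abbrev Om (F : Type) [Field F] : Subgroup (Cfsg.isometryGroup F (⇑(Q8 F))) := Cfsg.Omega F (⇑(Q8 F))

theorem mem_om {g : Cfsg.isometryGroup F (⇑(Q8 F))} {r : ℕ} (h : finrank F (resSp g) = 2 * r) : g ∈ Om F :=
  (even_rank (Q8 F) hΩ8 g).2 (by rw [h]; exact even_two_mul r)

theorem rank_u (R : Frame (Q8 F) 0) : finrank F (resSp R.u) = 2 := by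
  rw [R.resSp_u hQ8, Frame.finrank_pair R.li_ab]

theorem rank_w (R : Frame (Q8 F) 0) : finrank F (resSp R.w) = 2 := by
  rw [R.resSp_w hQ8, Frame.finrank_pair R.li_ac]

theorem rank_uw (R : Frame (Q8 F) 0) : finrank F (resSp (R.u * R.w)) = 2 := by
  rw [R.resSp_uw hQ8, Frame.finrank_pair R.li_as]

theorem u_om (R : Frame (Q8 F) 0) : R.u ∈ Om F := mem_om (r := 1) (rank_u R)
theorem w_om (R : Frame (Q8 F) 0) : R.w ∈ Om F := mem_om (r := 1) (rank_w R)

/-- elements of `Ω` -/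
def U (R : Frame (Q8 F) 0) : Om F := ⟨R.u, u_om R⟩
def W (R : Frame (Q8 F) 0) : Om F := ⟨R.w, w_om R⟩

theorem coe_U (R : Frame (Q8 F) 0) : ((U R : Om F) : Cfsg.isometryGroup F (⇑(Q8 F))) = R.u := rfl
theorem coe_W (R : Frame (Q8 F) 0) : ((W R : Om F) : Cfsg.isometryGroup F (⇑(Q8 F))) = R.w := rfl

/-- the conjugacy criterion in `Ω` -/
theorem conj8 (t g : Om F) (ht : t * t = 1) (hg : g * g = 1)
    (h : ¬ Alt (t : Cfsg.isometryGroup F (⇑(Q8 F))) ∨ 2 * finrank F (resSp (t : Cfsg.isometryGroup F (⇑(Q8 F)))) < 8)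
    (h1 : finrank F (resSp (t : Cfsg.isometryGroup F (⇑(Q8 F)))) = finrank F (resSp (g : Cfsg.isometryGroup F (⇑(Q8 F)))))
    (h2 : Alt (t : Cfsg.isometryGroup F (⇑(Q8 F))) ↔ Alt (g : Cfsg.isometryGroup F (⇑(Q8 F)))) : IsConj t g :=
  conj_of_inv (Q8 F) hQ8 hΩ8 t g (congrArg Subtype.val ht) (congrArg Subtype.val hg) (by rw [card8]; exact h) h1 h2

theorem U_sq (R : Frame (Q8 F) 0) : U R * U R = 1 := Subtype.ext R.u_sq
theorem W_sq (R : Frame (Q8 F) 0) : W R * W R = 1 := Subtype.ext R.w_sq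

theorem conj_UU (R R' : Frame (Q8 F) 0) : IsConj (U R) (U R') :=
  conj8 _ _ (U_sq R) (U_sq R') (Or.inr (by rw [coe_U, rank_u]; omega)) (by rw [coe_U, coe_U, rank_u, rank_u])
    ⟨fun _ => R'.alt_u hQ8, fun _ => R.alt_u hQ8⟩

theorem conj_UW (R R' : Frame (Q8 F) 0) : IsConj (U R) (W R') :=
  conj8 _ _ (U_sq R) (W_sq R') (Or.inr (by rw [coe_U, rank_u]; omega)) (by rw [coe_U, coe_W, rank_u, rank_w])
    ⟨fun _ => R'.alt_w hQ8, fun _ => R.alt_u hQ8⟩

theorem UW_comm (R : Frame (Q8 F) 0) : U R * W R = W R * U R := Subtype.ext R.comm_uw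

theorem sq_of_comm {G : Type*} [Group G] {p q : G} (hp : p * p = 1) (hq : q * q = 1) (h : p * q = q * p) :
    p * q * (p * q) = 1 := by
  calc p * q * (p * q) = p * (q * p) * q := by group
    _ = (p * p) * (q * q) := by rw [← h]; group
    _ = 1 := by rw [hp, hq, mul_one]

theorem UW_sq (R : Frame (Q8 F) 0) : U R * W R * (U R * W R) = 1 := sq_of_comm (U_sq R) (W_sq R) (UW_comm R)

theorem coe_UW (R : Frame (Q8 F) 0) : ((U R * W R : Om F) : Cfsg.isometryGroup F (⇑(Q8 F))) = R.u * R.w := rfl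

theorem conj_PP (R R' : Frame (Q8 F) 0) : IsConj (U R * W R) (U R' * W R') :=
  conj8 _ _ (UW_sq R) (UW_sq R') (Or.inl (by rw [coe_UW]; exact R.not_alt_uw hQ8))
    (by rw [coe_UW, coe_UW, rank_uw, rank_uw])
    ⟨fun h => absurd h (R.not_alt_uw hQ8), fun h => absurd h (R'.not_alt_uw hQ8)⟩

/-! #### products of elements of the two blocks -/

variable {g h : Om F} (hg : resSp (g : Cfsg.isometryGroup F (⇑(Q8 F))) ≤ B1 F)
  (hh : resSp (h : Cfsg.isometryGroup F (⇑(Q8 F))) ≤ B2 F)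
include hg hh

theorem blk_orth : ∀ x ∈ resSp (g : Cfsg.isometryGroup F (⇑(Q8 F))), ∀ y ∈ resSp (h : Cfsg.isometryGroup F (⇑(Q8 F))),
    polar (Q8 F) x y = 0 := fun x hx y hy => orth_blk x (hg hx) y (hh hy)

theorem blk_disj : resSp (g : Cfsg.isometryGroup F (⇑(Q8 F))) ⊓ resSp (h : Cfsg.isometryGroup F (⇑(Q8 F))) = ⊥ := by
  rw [eq_bot_iff, ← disj_blk]
  exact inf_le_inf hg hh

theorem blk_comm : g * h = h * g := Subtype.ext (comm_of_orth hQ8 (blk_orth hg hh))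

theorem blk_rank : finrank F (resSp ((g * h : Om F) : Cfsg.isometryGroup F (⇑(Q8 F))))
    = finrank F (resSp (g : Cfsg.isometryGroup F (⇑(Q8 F)))) + finrank F (resSp (h : Cfsg.isometryGroup F (⇑(Q8 F)))) :=
  finrank_resSp_mul hQ8 (blk_orth hg hh) (blk_disj hg hh)

theorem blk_alt : Alt ((g * h : Om F) : Cfsg.isometryGroup F (⇑(Q8 F)))
    ↔ Alt (g : Cfsg.isometryGroup F (⇑(Q8 F))) ∧ Alt (h : Cfsg.isometryGroup F (⇑(Q8 F))) :=
  alt_mul hQ8 (blk_orth hg hh) (blk_disj hg hh)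

end omega

section elements

variable (F : Type) [Field F] [Fintype F] [CharP F 2]

theorem u1_le : resSp ((U (R1 F) : Om F) : Cfsg.isometryGroup F (⇑(Q8 F))) ≤ B1 F := (R1 F).res_u_le e0_mem e1_mem
theorem w1_le : resSp ((W (R1 F) : Om F) : Cfsg.isometryGroup F (⇑(Q8 F))) ≤ B1 F := (R1 F).res_w_le e0_mem f1_mem
theorem p1_le : resSp ((U (R1 F) * W (R1 F) : Om F) : Cfsg.isometryGroup F (⇑(Q8 F))) ≤ B1 F :=
  (R1 F).res_uw_le e0_mem e1_mem f1_mem
theorem u2_le : resSp ((U (R2 F) : Om F) : Cfsg.isometryGroup F (⇑(Q8 F))) ≤ B2 F := (R2 F).res_u_le e2_mem e3_mem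
theorem w2_le : resSp ((W (R2 F) : Om F) : Cfsg.isometryGroup F (⇑(Q8 F))) ≤ B2 F := (R2 F).res_w_le e2_mem f3_mem
theorem p2_le : resSp ((U (R2 F) * W (R2 F) : Om F) : Cfsg.isometryGroup F (⇑(Q8 F))) ≤ B2 F :=
  (R2 F).res_uw_le e2_mem e3_mem f3_mem
theorem k1_le : resSp (R1 F).k ≤ B1 F := (R1 F).res_k_le e1_mem f1_mem
theorem k2_le : resSp (R2 F).k ≤ B2 F := (R2 F).res_k_le e3_mem f3_mem

theorem k1_k2 : (R1 F).k * (R2 F).k = (R2 F).k * (R1 F).k :=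
  comm_of_orth hQ8 fun x hx y hy => orth_blk x (k1_le F hx) y (k2_le F hy)

theorem k1_u2 : (R1 F).k * (R2 F).u = (R2 F).u * (R1 F).k :=
  comm_of_orth hQ8 fun x hx y hy => orth_blk x (k1_le F hx) y (u2_le F hy)

theorem k1_w2 : (R1 F).k * (R2 F).w = (R2 F).w * (R1 F).k :=
  comm_of_orth hQ8 fun x hx y hy => orth_blk x (k1_le F hx) y (w2_le F hy)

theorem k2_u1 : (R2 F).k * (R1 F).u = (R1 F).u * (R2 F).k :=
  (comm_of_orth hQ8 fun x hx y hy => orth_blk x (u1_le F hx) y (k2_le F hy)).symm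

theorem k2_w1 : (R2 F).k * (R1 F).w = (R1 F).w * (R2 F).k :=
  (comm_of_orth hQ8 fun x hx y hy => orth_blk x (w1_le F hx) y (k2_le F hy)).symm

theorem k_w {n : ℕ} (R : Frame (Q8 F) n) : R.k * R.w = R.u * R.k := by
  have h1 := R.k_u
  calc R.k * R.w = R.k * (R.w * R.k) * R.k⁻¹ := by group
    _ = (R.k * R.k) * R.u * R.k⁻¹ := by rw [← h1]; group
    _ = R.u * R.k⁻¹ := by rw [R.k_sq, one_mul]
    _ = R.u * R.k := by rw [inv_eq_of_mul_eq_one_left R.k_sq]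

theorem dsign_k {n : ℕ} (R : Frame (Q8 F) n) : dsign (Q8 F) R.k = -1 := dsign_refl (Q8 F) hQ8 _ _

/-- the element exchanging `u_i` and `w_i` in both blocks -/
theorem kk_om : (R1 F).k * (R2 F).k ∈ Om F := by
  rw [hΩ8, dsign_mul_of_Gen (Q8 F) hQ8 hG8, dsign_k, dsign_k]
  decide

theorem conj_RR : IsConj (U (R1 F) * U (R2 F)) (W (R1 F) * W (R2 F)) := by
  rw [isConj_iff]
  refine ⟨⟨_, kk_om F⟩, Subtype.ext ?_⟩
  change (R1 F).k * (R2 F).k * ((R1 F).u * (R2 F).u) * ((R1 F).k * (R2 F).k)⁻¹ = (R1 F).w * (R2 F).w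
  calc (R1 F).k * (R2 F).k * ((R1 F).u * (R2 F).u) * ((R1 F).k * (R2 F).k)⁻¹
      = (R1 F).k * ((R2 F).k * (R1 F).u) * (R2 F).u * (R2 F).k⁻¹ * (R1 F).k⁻¹ := by group
    _ = ((R1 F).k * (R1 F).u) * ((R2 F).k * (R2 F).u) * (R2 F).k⁻¹ * (R1 F).k⁻¹ := by rw [k2_u1]; group
    _ = (R1 F).w * ((R1 F).k * (R2 F).w) * (R1 F).k⁻¹ := by rw [(R1 F).k_u, (R2 F).k_u]; group
    _ = (R1 F).w * (R2 F).w := by rw [k1_w2]; group

theorem conj_SS : IsConj (U (R1 F) * W (R2 F)) (W (R1 F) * U (R2 F)) := by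
  rw [isConj_iff]
  refine ⟨⟨_, kk_om F⟩, Subtype.ext ?_⟩
  change (R1 F).k * (R2 F).k * ((R1 F).u * (R2 F).w) * ((R1 F).k * (R2 F).k)⁻¹ = (R1 F).w * (R2 F).u
  calc (R1 F).k * (R2 F).k * ((R1 F).u * (R2 F).w) * ((R1 F).k * (R2 F).k)⁻¹
      = (R1 F).k * ((R2 F).k * (R1 F).u) * (R2 F).w * (R2 F).k⁻¹ * (R1 F).k⁻¹ := by group
    _ = ((R1 F).k * (R1 F).u) * ((R2 F).k * (R2 F).w) * (R2 F).k⁻¹ * (R1 F).k⁻¹ := by rw [k2_u1]; group
    _ = (R1 F).w * ((R1 F).k * (R2 F).u) * (R1 F).k⁻¹ := by rw [(R1 F).k_u, k_w F (R2 F)]; group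
    _ = (R1 F).w * (R2 F).u := by rw [k1_u2]; group

theorem conj_CC : IsConj (U (R1 F) * W (R1 F) * U (R2 F)) (U (R1 F) * W (R1 F) * (U (R2 F) * W (R2 F))) := by
  have h1 := blk_comm (p1_le F) (u2_le F)
  have h2 := blk_comm (p1_le F) (p2_le F)
  refine conj8 _ _ (sq_of_comm (UW_sq _) (U_sq _) h1) (sq_of_comm (UW_sq _) (UW_sq _) h2) (Or.inl ?_) ?_ ?_
  · rw [blk_alt (p1_le F) (u2_le F)]
    exact fun h => (R1 F).not_alt_uw hQ8 h.1
  · rw [blk_rank (p1_le F) (u2_le F), blk_rank (p1_le F) (p2_le F), coe_UW, coe_UW, coe_U, rank_uw, rank_uw, rank_u]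
  · rw [blk_alt (p1_le F) (u2_le F), blk_alt (p1_le F) (p2_le F)]
    exact ⟨fun h => absurd h.1 ((R1 F).not_alt_uw hQ8), fun h => absurd h.1 ((R1 F).not_alt_uw hQ8)⟩

/-- **The five classes.** -/
theorem classes8 (t : Om F) (ht : orderOf t = 2) : IsConj t (U (R1 F)) ∨ IsConj t (U (R1 F) * W (R1 F)) ∨
    IsConj t (U (R1 F) * U (R2 F)) ∨ IsConj t (U (R1 F) * W (R2 F)) ∨
      IsConj t (U (R1 F) * W (R1 F) * (U (R2 F) * W (R2 F))) := by
  have htt : t * t = 1 := sq_of_orderOf ht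
  have htt' : (t : Cfsg.isometryGroup F (⇑(Q8 F))) * t = 1 := congrArg Subtype.val htt
  obtain ⟨r, hr⟩ := even_of_omega (Q8 F) hΩ8 t
  have hr1 : 1 ≤ r := by
    by_contra h0
    have h6 : 0 < finrank F (resSp (t : Cfsg.isometryGroup F (⇑(Q8 F)))) := by
      rw [finrank_resSp_pos]
      intro h7
      exact ne_one_of_orderOf ht (Subtype.ext h7)
    omega
  have hle := two_mul_finrank_res_le (Q8 F) (t : Cfsg.isometryGroup F (⇑(Q8 F))) htt'
  rw [hr, card8] at hle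
  by_cases hA : Alt (t : Cfsg.isometryGroup F (⇑(Q8 F)))
  · rcases (show r = 1 ∨ r = 2 by omega) with rfl | rfl
    · left
      exact conj8 _ _ htt (U_sq _) (Or.inr (by rw [hr]; omega)) (by rw [hr, coe_U, rank_u])
        ⟨fun _ => (R1 F).alt_u hQ8, fun _ => hA⟩
    · have huu : Alt ((U (R1 F) * U (R2 F) : Om F) : Cfsg.isometryGroup F (⇑(Q8 F))) :=
        (blk_alt (u1_le F) (u2_le F)).2 ⟨(R1 F).alt_u hQ8, (R2 F).alt_u hQ8⟩
      have huu2 : U (R1 F) * U (R2 F) * (U (R1 F) * U (R2 F)) = 1 :=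
        sq_of_comm (U_sq _) (U_sq _) (blk_comm (u1_le F) (u2_le F))
      obtain ⟨h, hh⟩ := isConj_iff.1 ((isConj_iff_rank_alt (Q8 F) hQ8 (t : Cfsg.isometryGroup F (⇑(Q8 F)))
        ((U (R1 F) * U (R2 F) : Om F) : Cfsg.isometryGroup F (⇑(Q8 F))) htt' (congrArg Subtype.val huu2)).2
        ⟨by rw [hr, blk_rank (u1_le F) (u2_le F), coe_U, coe_U, rank_u, rank_u], ⟨fun _ => huu, fun _ => hA⟩⟩)
      by_cases hs : dsign (Q8 F) h = 1
      · right; right; left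
        rw [isConj_iff]
        exact ⟨⟨h, (hΩ8 h).2 hs⟩, Subtype.ext hh⟩
      · right; right; right; left
        have hkh : dsign (Q8 F) ((R2 F).k * h) = 1 := by
          rw [dsign_mul_of_Gen (Q8 F) hQ8 hG8, dsign_k]
          rcases Int.units_eq_one_or (dsign (Q8 F) h) with h3 | h3
          · exact absurd h3 hs
          · rw [h3]; decide
        rw [isConj_iff]
        refine ⟨⟨(R2 F).k * h, (hΩ8 _).2 hkh⟩, Subtype.ext ?_⟩
        change (R2 F).k * h * (t : Cfsg.isometryGroup F (⇑(Q8 F))) * ((R2 F).k * h)⁻¹ = (R1 F).u * (R2 F).w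
        change h * (t : Cfsg.isometryGroup F (⇑(Q8 F))) * h⁻¹ = (R1 F).u * (R2 F).u at hh
        calc (R2 F).k * h * (t : Cfsg.isometryGroup F (⇑(Q8 F))) * ((R2 F).k * h)⁻¹
            = (R2 F).k * (h * (t : Cfsg.isometryGroup F (⇑(Q8 F))) * h⁻¹) * (R2 F).k⁻¹ := by group
          _ = ((R2 F).k * (R1 F).u) * (R2 F).u * (R2 F).k⁻¹ := by rw [hh]; group
          _ = (R1 F).u * ((R2 F).k * (R2 F).u) * (R2 F).k⁻¹ := by rw [k2_u1]; group
          _ = (R1 F).u * (R2 F).w := by rw [(R2 F).k_u]; group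
  · rcases (show r = 1 ∨ r = 2 by omega) with rfl | rfl
    · right; left
      exact conj8 _ _ htt (UW_sq _) (Or.inl hA) (by rw [hr, coe_UW, rank_uw])
        ⟨fun h => absurd h hA, fun h => absurd h ((R1 F).not_alt_uw hQ8)⟩
    · right; right; right; right
      refine conj8 _ _ htt (sq_of_comm (UW_sq _) (UW_sq _) (blk_comm (p1_le F) (p2_le F))) (Or.inl hA) ?_ ?_
      · rw [hr, blk_rank (p1_le F) (p2_le F), coe_UW, coe_UW, rank_uw, rank_uw]
      · rw [blk_alt (p1_le F) (p2_le F)]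
        exact ⟨fun h => absurd h hA, fun h => absurd h.1 ((R1 F).not_alt_uw hQ8)⟩

/-- **The covers of `Ω⁺_8(q)`, `q` even, with kernel of exponent two.** -/
theorem em_cover8 (hE : EM (Om F)) {L : Type u} [Group L] {π : L →* Om F} (hs : Function.Surjective π)
    (hc : π.ker ≤ center L) (h2 : ∀ z ∈ π.ker, z * z = 1) : EM L := by
  have pa : U (R1 F) * U (R02 F) = U (Ra F) := Subtype.ext prod_a
  have pb : U (R1 F) * U (R12 F) = U (Rb F) := Subtype.ext prod_b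
  have pc : U (R02 F) * U (R12 F) = U (Rc F) := Subtype.ext prod_c
  have pd : U (R1 F) * U (R02 F) * U (R12 F) = U (Rd F) := Subtype.ext prod_d
  exact o8_core hs hc h2 (u1 := U (R1 F)) (w1 := W (R1 F)) (u2 := U (R2 F)) (w2 := W (R2 F)) (t := U (R02 F))
    (s := U (R12 F)) (U_sq _) (Subtype.ext comm_a) (Subtype.ext comm_b) (Subtype.ext comm_c)
    (conj_UU _ _) (conj_UU _ _) (by rw [pa]; exact conj_UU _ _) (by rw [pb]; exact conj_UU _ _)
    (by rw [pc]; exact conj_UU _ _) (by rw [pd]; exact conj_UU _ _)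
    (UW_comm _) (UW_comm _) (blk_comm (u1_le F) (u2_le F)) (blk_comm (u1_le F) (w2_le F))
    (blk_comm (w1_le F) (u2_le F)) (blk_comm (w1_le F) (w2_le F))
    (conj_UW _ _) (conj_UU _ _) (conj_UW _ _) (conj_PP _ _) (conj_RR F) (conj_SS F) (conj_CC F)
    (classes8 F) hE

end elements

/-- `Ω ≃ PΩ` -/
theorem exists_equiv8 (F : Type) [Field F] [Fintype F] [CharP F 2] :
    Nonempty (Om F ≃* Cfsg.POmega F (⇑(Q8 F))) := by
  have hc : Subgroup.center (Cfsg.Omega F (⇑(Q8 F))) = ⊥ :=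
    Cfsg.Agent.LieClassical.OrthCenter.center_omega_eq_bot_char_two CharTwo.two_eq_zero hQ8 (by rw [card8]; omega)
      ⟨px 4 F 0, by
        intro h
        have h1 := congrFun h (Sum.inl 0)
        simp [px] at h1, Qe 0⟩
  have hinj : Function.Injective (QuotientGroup.mk' (Subgroup.center (Cfsg.Omega F (⇑(Q8 F))))) := by
    rw [← MonoidHom.ker_eq_bot_iff, QuotientGroup.ker_mk']
    exact hc
  exact ⟨MulEquiv.ofBijective (QuotientGroup.mk' _) ⟨hinj, QuotientGroup.mk'_surjective _⟩⟩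

/-- **Row: `PΩ⁺_8(2)`.** -/
theorem crow_o8plus2 {F : Type} [Field F] [Fintype F] (hF : Fintype.card F = 2)
    (hE : EM (Cfsg.POmega F (Cfsg.quadFormPlus 4 F)))
    {L : Type u} [Group L] (φ : L ≃* Cfsg.POmega F (Cfsg.quadFormPlus 4 F)) : CRow L := by
  have := charP_of_even (F := F) (by rw [hF]; exact even_two)
  refine CRow.congr φ ?_
  have hm := Cfsg.Agent.S2098.result hF
  rw [← coe_plusForm] at hE hm ⊢
  obtain ⟨k⟩ := exists_equiv8 F
  refine CRow.congr k.symm ?_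
  intro L' _ _ π hπ h2p
  have hx : ExpTwo (Cfsg.POmega F (⇑(Q8 F))) := expTwo_of_mult hm fun a => ⟨1, odd_one, by
    have h1 : ∀ b : ZMod 2 × ZMod 2, 2 • b = 0 := by decide
    apply Multiplicative.toAdd.injective
    rw [toAdd_pow, toAdd_one]
    exact h1 _⟩
  exact em_cover8 F (EM.congr k hE) hπ.surj hπ.cen (ExpTwo.congr k hx L' π hπ h2p)

end Cfsg.Agent.H731.EMO
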