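import Mathlib
import Cfsg.Agent.H277.EM.Crow
import Cfsg.Agent.H216.Unf.PslEven
import Cfsg.Agent.H131.ClassTwo
import Cfsg.Agent.S2086
import Cfsg.Agent.S0256

/-!
# S2243: `PSL_n(q)`, `q` even (helper731)

An involution lifts to `1 + N`, `N ^ 2 = 0`; a subspace `W` of dimension `n / 2` with `im N ≤ W ≤ ker N` is conjugate
to the span of the first `n / 2` basis vectors.
-/

set_option autoImplicit false

namespace Cfsg.Agent.H731.EMO

open Matrix Module Cfsg.Agent.H277.MI

universe u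

section lin

variable {F V : Type*} [Field F] [AddCommGroup V] [Module F V] [FiniteDimensional F V]

/-- an intermediate subspace of given dimension -/
theorem exists_between {R K : Submodule F V} (hRK : R ≤ K) {m : ℕ} (h1 : finrank F R ≤ m) (h2 : m ≤ finrank F K) :
    ∃ W : Submodule F V, R ≤ W ∧ W ≤ K ∧ finrank F W = m := by
  induction m with
  | zero => exact ⟨R, le_rfl, hRK, by omega⟩
  | succ m ih =>
    by_cases h3 : finrank F R = m + 1
    · exact ⟨R, le_rfl, hRK, h3⟩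
    · obtain ⟨W, hW1, hW2, hW3⟩ := ih (by omega) (by omega)
      obtain ⟨x, hx, hxW⟩ : ∃ x ∈ K, x ∉ W := by
        by_contra hcon
        push Not at hcon
        have h4 : finrank F K ≤ finrank F W := Submodule.finrank_mono hcon
        omega
      refine ⟨W ⊔ Submodule.span F {x}, le_sup_of_le_left hW1, sup_le hW2 ?_, ?_⟩
      · rw [Submodule.span_le, Set.singleton_subset_iff]
        exact hx
      · rw [Submodule.finrank_sup_span_singleton hxW, hW3]

/-- the general linear group is transitive on subspaces of given dimension -/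
theorem exists_equiv_map {W W' : Submodule F V} (h : finrank F W = finrank F W') :
    ∃ g : V ≃ₗ[F] V, ∀ x ∈ W, g x ∈ W' := by
  obtain ⟨C, hC⟩ := W.exists_isCompl
  obtain ⟨C', hC'⟩ := W'.exists_isCompl
  have h1 := Submodule.finrank_add_eq_of_isCompl hC
  have h2 := Submodule.finrank_add_eq_of_isCompl hC'
  have e1 : W ≃ₗ[F] W' := LinearEquiv.ofFinrankEq _ _ h
  have e2 : C ≃ₗ[F] C' := LinearEquiv.ofFinrankEq _ _ (by omega)
  refine ⟨(Submodule.prodEquivOfIsCompl W C hC).symm ≪≫ₗ (e1.prodCongr e2) ≪≫ₗ Submodule.prodEquivOfIsCompl W' C' hC',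
    fun x hx => ?_⟩
  have h3 : (Submodule.prodEquivOfIsCompl W C hC).symm x = (⟨x, hx⟩, 0) :=
    Submodule.prodEquivOfIsCompl_symm_apply_left W C hC ⟨x, hx⟩
  rw [LinearEquiv.trans_apply, LinearEquiv.trans_apply, h3]
  show Submodule.prodEquivOfIsCompl W' C' hC' (e1 ⟨x, hx⟩, e2 0) ∈ W'
  rw [map_zero, Submodule.coe_prodEquivOfIsCompl']
  simp

end lin

section mat

variable {F : Type*} [Field F] {n : ℕ}

/-- the projection onto the span of the first `m` basis vectors -/
def prj (n : ℕ) (F : Type*) [Field F] (m : ℕ) : Matrix (Fin n) (Fin n) F :=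
  Matrix.diagonal fun i => if (i : ℕ) < m then 1 else 0

theorem prj_sq (m : ℕ) : prj n F m * prj n F m = prj n F m := by
  unfold prj
  rw [Matrix.diagonal_mul_diagonal]
  congr 1
  funext i
  split_ifs <;> simp

theorem rank_prj {m : ℕ} (hm : m ≤ n) : (prj n F m).rank = m := by
  classical
  unfold prj
  rw [Matrix.rank_diagonal]
  have h1 : ∀ i : Fin n, (if (i : ℕ) < m then (1 : F) else 0) ≠ 0 ↔ (i : ℕ) < m := by
    intro i
    split_ifs with h <;> simp [h]
  simp only [h1]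
  exact Cfsg.Agent.H131.ClassTwo.card_lt m hm

/-- the diagonal matrix `(c, 1, ..., 1)` -/
def dia (n : ℕ) {F : Type*} [Field F] (c : F) : Matrix (Fin n) (Fin n) F :=
  Matrix.diagonal fun i => if (i : ℕ) = 0 then c else 1

theorem det_dia (hn : n ≠ 0) (c : F) : (dia n c).det = c := by
  obtain ⟨k, rfl⟩ := Nat.exists_eq_succ_of_ne_zero hn
  unfold dia
  rw [Matrix.det_diagonal, Fin.prod_univ_succ]
  simp

theorem dia_prj (c : F) (m : ℕ) : dia n c * prj n F m = prj n F m * dia n c := by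
  unfold dia prj
  rw [Matrix.diagonal_mul_diagonal, Matrix.diagonal_mul_diagonal]
  congr 1
  funext i
  rw [mul_comm]

/-- **Square-zero matrices**: conjugate in the special linear group to a matrix with image in the span of the
first `m` basis vectors and annihilating it. -/
theorem exists_sl_conj (hn : n ≠ 0) {m : ℕ} {N : Matrix (Fin n) (Fin n) F} (hN : N * N = 0)
    (h1 : N.rank ≤ m) (h2 : m + N.rank ≤ n) : ∃ g : Matrix.SpecialLinearGroup (Fin n) F,
      prj n F m * ((g : Matrix (Fin n) (Fin n) F) * N) = (g : Matrix (Fin n) (Fin n) F) * N ∧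
      N * ((g⁻¹ : Matrix.SpecialLinearGroup (Fin n) F) : Matrix (Fin n) (Fin n) F) * prj n F m = 0 := by
  have hRK : LinearMap.range N.mulVecLin ≤ LinearMap.ker N.mulVecLin := by
    rintro _ ⟨v, rfl⟩
    rw [LinearMap.mem_ker, Matrix.mulVecLin_apply, Matrix.mulVecLin_apply, Matrix.mulVec_mulVec, hN, Matrix.zero_mulVec]
  have h3 : finrank F (LinearMap.range N.mulVecLin) + finrank F (LinearMap.ker N.mulVecLin) = n := by
    rw [LinearMap.finrank_range_add_finrank_ker, Module.finrank_fin_fun]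
  have h4 : finrank F (LinearMap.range N.mulVecLin) = N.rank := rfl
  obtain ⟨W, hW1, hW2, hW3⟩ := exists_between hRK (m := m) (by omega) (by omega)
  have h5 : finrank F (LinearMap.range (prj n F m).mulVecLin) = m := rank_prj (by omega)
  obtain ⟨e, he⟩ := exists_equiv_map (h5.trans hW3.symm)
  obtain ⟨f, hf⟩ := exists_equiv_map (hW3.trans h5.symm)
  -- `e` maps the standard space onto `W`
  have he' : ∀ x ∈ W, e.symm x ∈ LinearMap.range (prj n F m).mulVecLin := by
    have h6 : (LinearMap.range (prj n F m).mulVecLin).map e.toLinearMap = W := by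
      apply Submodule.eq_of_le_of_finrank_eq
      · rintro _ ⟨x, hx, rfl⟩
        exact he x hx
      · rw [LinearEquiv.finrank_map_eq, h5, hW3]
    intro x hx
    rw [← h6] at hx
    obtain ⟨y, hy, rfl⟩ := hx
    rw [LinearEquiv.coe_coe, LinearEquiv.symm_apply_apply]
    exact hy
  obtain ⟨A, hA⟩ : ∃ A, A = LinearMap.toMatrix' e.toLinearMap := ⟨_, rfl⟩
  obtain ⟨B, hB⟩ : ∃ B, B = LinearMap.toMatrix' e.symm.toLinearMap := ⟨_, rfl⟩
  have hAv : ∀ v, A *ᵥ v = e v := by
    intro v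
    rw [hA, LinearMap.toMatrix'_mulVec]
    rfl
  have hBv : ∀ v, B *ᵥ v = e.symm v := by
    intro v
    rw [hB, LinearMap.toMatrix'_mulVec]
    rfl
  have hBA : B * A = 1 := by
    apply Matrix.toLin'.injective
    apply LinearMap.ext
    intro v
    rw [Matrix.toLin'_apply, Matrix.toLin'_apply, ← Matrix.mulVec_mulVec, hAv, hBv, LinearEquiv.symm_apply_apply,
      Matrix.one_mulVec]
  have hAB : A * B = 1 := mul_eq_one_comm.1 hBA
  have hB0 : B.det ≠ 0 := by
    intro h0
    have := congrArg Matrix.det hBA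
    rw [Matrix.det_mul, h0, zero_mul, Matrix.det_one] at this
    exact zero_ne_one this
  obtain ⟨c, hc⟩ : ∃ c, c = (B.det)⁻¹ := ⟨_, rfl⟩
  have hc0 : c ≠ 0 := by rw [hc]; exact inv_ne_zero hB0
  have hdet : (dia n c * B).det = 1 := by rw [Matrix.det_mul, det_dia hn, hc, inv_mul_cancel₀ hB0]
  have hdd : dia n c * dia n c⁻¹ = 1 := by
    unfold dia
    rw [Matrix.diagonal_mul_diagonal, ← Matrix.diagonal_one]
    congr 1
    funext i
    split_ifs
    · exact mul_inv_cancel₀ hc0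
    · rw [mul_one]
  -- the two conditions
  have e1 : prj n F m * (B * N) = B * N := by
    apply Matrix.toLin'.injective
    apply LinearMap.ext
    intro v
    rw [Matrix.toLin'_apply, Matrix.toLin'_apply, ← Matrix.mulVec_mulVec]
    have h6 : (B * N) *ᵥ v ∈ LinearMap.range (prj n F m).mulVecLin := by
      rw [← Matrix.mulVec_mulVec, hBv]
      exact he' _ (hW1 ⟨v, rfl⟩)
    obtain ⟨w, hw⟩ := h6
    rw [← hw, Matrix.mulVecLin_apply, Matrix.mulVec_mulVec, prj_sq]
  have e2 : N * A * prj n F m = 0 := by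
    apply Matrix.toLin'.injective
    apply LinearMap.ext
    intro v
    rw [Matrix.toLin'_apply, map_zero, LinearMap.zero_apply, mul_assoc, ← Matrix.mulVec_mulVec, ← Matrix.mulVec_mulVec, hAv]
    exact hW2 (he _ ⟨v, rfl⟩)
  obtain ⟨G, hG⟩ : ∃ G : Matrix.SpecialLinearGroup (Fin n) F, (G : Matrix (Fin n) (Fin n) F) = dia n c * B :=
    ⟨⟨_, hdet⟩, rfl⟩
  have hinv : ((G⁻¹ : Matrix.SpecialLinearGroup (Fin n) F) : Matrix (Fin n) (Fin n) F) = A * dia n c⁻¹ := by
    have h6 : ((G⁻¹ : Matrix.SpecialLinearGroup (Fin n) F) : Matrix (Fin n) (Fin n) F) * (dia n c * B) = 1 := by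
      rw [← hG, ← Matrix.SpecialLinearGroup.coe_mul, inv_mul_cancel, Matrix.SpecialLinearGroup.coe_one]
    calc ((G⁻¹ : Matrix.SpecialLinearGroup (Fin n) F) : Matrix (Fin n) (Fin n) F)
        = ((G⁻¹ : Matrix.SpecialLinearGroup (Fin n) F) : Matrix (Fin n) (Fin n) F) *
          (dia n c * (B * A) * dia n c⁻¹) := by rw [hBA, mul_one, hdd, mul_one]
      _ = (((G⁻¹ : Matrix.SpecialLinearGroup (Fin n) F) : Matrix (Fin n) (Fin n) F) *
          (dia n c * B)) * (A * dia n c⁻¹) := by simp only [mul_assoc]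
      _ = A * dia n c⁻¹ := by rw [h6, one_mul]
  refine ⟨G, ?_, ?_⟩
  · rw [hG]
    calc prj n F m * (dia n c * B * N) = (prj n F m * dia n c) * (B * N) := by simp only [mul_assoc]
      _ = dia n c * (prj n F m * (B * N)) := by rw [← dia_prj, mul_assoc]
      _ = dia n c * B * N := by rw [e1, mul_assoc]
  · rw [hinv]
    calc N * (A * dia n c⁻¹) * prj n F m = N * A * (dia n c⁻¹ * prj n F m) := by simp only [mul_assoc]
      _ = (N * A * prj n F m) * dia n c⁻¹ := by rw [dia_prj]; simp only [mul_assoc]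
      _ = 0 := by rw [e2, zero_mul]

/-- the rank of a square-zero matrix -/
theorem two_rank_le {N : Matrix (Fin n) (Fin n) F} (hN : N * N = 0) : 2 * N.rank ≤ n := by
  have hRK : LinearMap.range N.mulVecLin ≤ LinearMap.ker N.mulVecLin := by
    rintro _ ⟨v, rfl⟩
    rw [LinearMap.mem_ker, Matrix.mulVecLin_apply, Matrix.mulVecLin_apply, Matrix.mulVec_mulVec, hN, Matrix.zero_mulVec]
  have h3 : finrank F (LinearMap.range N.mulVecLin) + finrank F (LinearMap.ker N.mulVecLin) = n := by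
    rw [LinearMap.finrank_range_add_finrank_ker, Module.finrank_fin_fun]
  have h4 : finrank F (LinearMap.range N.mulVecLin) = N.rank := rfl
  have h5 := Submodule.finrank_mono hRK
  omega

/-- the elementary abelian group -/
def elm (n : ℕ) (F : Type*) [Field F] (m : ℕ) : Subgroup (Matrix.SpecialLinearGroup (Fin n) F) where
  carrier := {u | prj n F m * ((u : Matrix (Fin n) (Fin n) F) - 1) = (u : Matrix (Fin n) (Fin n) F) - 1 ∧
    ((u : Matrix (Fin n) (Fin n) F) - 1) * prj n F m = 0}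
  one_mem' := by
    constructor <;> simp
  mul_mem' := by
    rintro a b ⟨ha, ha'⟩ ⟨hb, hb'⟩
    have h0 : ((a : Matrix (Fin n) (Fin n) F) - 1) * ((b : Matrix (Fin n) (Fin n) F) - 1) = 0 := by
      rw [← hb, ← mul_assoc, ha', zero_mul]
    have h1 : ((a * b : Matrix.SpecialLinearGroup (Fin n) F) : Matrix (Fin n) (Fin n) F) - 1 =
        ((a : Matrix (Fin n) (Fin n) F) - 1) + ((b : Matrix (Fin n) (Fin n) F) - 1) := by
      rw [Matrix.SpecialLinearGroup.coe_mul]
      have : (a : Matrix (Fin n) (Fin n) F) * b - 1 = ((a : Matrix (Fin n) (Fin n) F) - 1) * ((b : Matrix (Fin n) (Fin n) F) - 1) +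
          (((a : Matrix (Fin n) (Fin n) F) - 1) + ((b : Matrix (Fin n) (Fin n) F) - 1)) := by noncomm_ring
      rw [this, h0, zero_add]
    constructor
    · rw [h1, mul_add, ha, hb]
    · rw [h1, add_mul, ha', hb', add_zero]
  inv_mem' := by
    rintro a ⟨ha, ha'⟩
    have h0 : ((a : Matrix (Fin n) (Fin n) F) - 1) * ((a : Matrix (Fin n) (Fin n) F) - 1) = 0 := by
      nth_rewrite 2 [← ha]
      rw [← mul_assoc, ha', zero_mul]
    have h1 : (a : Matrix (Fin n) (Fin n) F) * (1 - ((a : Matrix (Fin n) (Fin n) F) - 1)) = 1 := by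
      have : (a : Matrix (Fin n) (Fin n) F) * (1 - ((a : Matrix (Fin n) (Fin n) F) - 1)) =
          1 - ((a : Matrix (Fin n) (Fin n) F) - 1) * ((a : Matrix (Fin n) (Fin n) F) - 1) := by noncomm_ring
      rw [this, h0, sub_zero]
    have h2 : ((a⁻¹ : Matrix.SpecialLinearGroup (Fin n) F) : Matrix (Fin n) (Fin n) F) =
        1 - ((a : Matrix (Fin n) (Fin n) F) - 1) := by
      have h3 : ((a⁻¹ : Matrix.SpecialLinearGroup (Fin n) F) : Matrix (Fin n) (Fin n) F) * (a : Matrix (Fin n) (Fin n) F) = 1 := by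
        have := inv_mul_cancel a
        exact congrArg Subtype.val this
      calc ((a⁻¹ : Matrix.SpecialLinearGroup (Fin n) F) : Matrix (Fin n) (Fin n) F)
          = ((a⁻¹ : Matrix.SpecialLinearGroup (Fin n) F) : Matrix (Fin n) (Fin n) F) *
            ((a : Matrix (Fin n) (Fin n) F) * (1 - ((a : Matrix (Fin n) (Fin n) F) - 1))) := by rw [h1, mul_one]
        _ = _ := by rw [← mul_assoc, h3, one_mul]
    have h4 : ((a⁻¹ : Matrix.SpecialLinearGroup (Fin n) F) : Matrix (Fin n) (Fin n) F) - 1 =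
        -((a : Matrix (Fin n) (Fin n) F) - 1) := by rw [h2]; abel
    constructor
    · rw [h4, mul_neg, ha]
    · rw [h4, neg_mul, ha', neg_zero]

theorem elm_sq [CharP F 2] {m : ℕ} {u : Matrix.SpecialLinearGroup (Fin n) F} (hu : u ∈ elm n F m) : u * u = 1 := by
  obtain ⟨ha, ha'⟩ := hu
  have h0 : ((u : Matrix (Fin n) (Fin n) F) - 1) * ((u : Matrix (Fin n) (Fin n) F) - 1) = 0 := by
    nth_rewrite 2 [← ha]
    rw [← mul_assoc, ha', zero_mul]
  apply Subtype.ext
  show (u : Matrix (Fin n) (Fin n) F) * (u : Matrix (Fin n) (Fin n) F) = 1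
  have h3 : ((u : Matrix (Fin n) (Fin n) F) - 1) + ((u : Matrix (Fin n) (Fin n) F) - 1) = 0 := by
    rw [← two_smul F ((u : Matrix (Fin n) (Fin n) F) - 1), CharTwo.two_eq_zero, zero_smul]
  have h4 : (u : Matrix (Fin n) (Fin n) F) * (u : Matrix (Fin n) (Fin n) F) =
      ((u : Matrix (Fin n) (Fin n) F) - 1) * ((u : Matrix (Fin n) (Fin n) F) - 1) +
      (((u : Matrix (Fin n) (Fin n) F) - 1) + ((u : Matrix (Fin n) (Fin n) F) - 1)) + 1 := by noncomm_ring
  rw [h4, h0, h3, zero_add, zero_add]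

/-- **Conjugation into the elementary abelian group.** -/
theorem exists_conj_elm [CharP F 2] (hn : n ≠ 0) {u : Matrix.SpecialLinearGroup (Fin n) F} (hu : u * u = 1) :
    ∃ g : Matrix.SpecialLinearGroup (Fin n) F, g * u * g⁻¹ ∈ elm n F (n / 2) := by
  obtain ⟨N, hN⟩ : ∃ N, N = (u : Matrix (Fin n) (Fin n) F) - 1 := ⟨_, rfl⟩
  have huN : (u : Matrix (Fin n) (Fin n) F) = 1 + N := by rw [hN]; abel
  have huu' : (u : Matrix (Fin n) (Fin n) F) * (u : Matrix (Fin n) (Fin n) F) = 1 := by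
    rw [← Matrix.SpecialLinearGroup.coe_mul, hu, Matrix.SpecialLinearGroup.coe_one]
  have hNN : N * N = 0 := by
    have h3 : N + N = 0 := by
      rw [← two_smul F N, CharTwo.two_eq_zero, zero_smul]
    have h4 : N * N = (u : Matrix (Fin n) (Fin n) F) * (u : Matrix (Fin n) (Fin n) F) - 1 - (N + N) := by
      rw [huN]; noncomm_ring
    rw [h4, huu', h3, sub_self, sub_zero]
  have hr := two_rank_le hNN
  obtain ⟨g, hg1, hg2⟩ := exists_sl_conj hn (m := n / 2) hNN (by omega) (by omega)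
  have hgg : (g : Matrix (Fin n) (Fin n) F) * ((g⁻¹ : Matrix.SpecialLinearGroup (Fin n) F) : Matrix (Fin n) (Fin n) F) = 1 := by
    rw [← Matrix.SpecialLinearGroup.coe_mul, mul_inv_cancel, Matrix.SpecialLinearGroup.coe_one]
  have h5 : ((g * u * g⁻¹ : Matrix.SpecialLinearGroup (Fin n) F) : Matrix (Fin n) (Fin n) F) - 1 =
      (g : Matrix (Fin n) (Fin n) F) * N * ((g⁻¹ : Matrix.SpecialLinearGroup (Fin n) F) : Matrix (Fin n) (Fin n) F) := by
    rw [Matrix.SpecialLinearGroup.coe_mul, Matrix.SpecialLinearGroup.coe_mul, huN, mul_add, mul_one, add_mul, hgg]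
    abel
  refine ⟨g, ?_, ?_⟩
  · rw [h5, ← mul_assoc, hg1]
  · rw [h5, mul_assoc (g : Matrix (Fin n) (Fin n) F), mul_assoc (g : Matrix (Fin n) (Fin n) F), hg2, mul_zero]

end mat

section group

variable {F : Type} [Field F] [Fintype F] {n : ℕ}

/-- a field with an even number of elements has characteristic two -/
theorem charTwo_of_even {F : Type*} [Field F] [Fintype F] (hF : Even (Fintype.card F)) : CharP F 2 := by
  obtain ⟨p, hp⟩ := CharP.exists F
  have hpp : p.Prime := CharP.char_is_prime F p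
  obtain ⟨m, -, hm⟩ := FiniteField.card F p
  have h3 : 2 ∣ p := by
    rw [hm] at hF
    exact Nat.prime_two.dvd_of_dvd_pow hF.two_dvd
  rw [(Nat.prime_dvd_prime_iff_eq Nat.prime_two hpp).1 h3]
  exact hp

/-- **`PSL_n(q)`, `q` even.** -/
theorem em_psl_even (hF : Even (Fintype.card F)) (hn : 2 ≤ n) :
    EM (Matrix.ProjectiveSpecialLinearGroup (Fin n) F) := by
  have hchar : CharP F 2 := charTwo_of_even hF
  refine em_iff.2 ⟨(elm n F (n / 2)).map (QuotientGroup.mk' _), ?_, ?_⟩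
  · rintro _ ⟨u, hu, rfl⟩
    rw [← map_mul, elm_sq hu, map_one]
  · intro t ht
    obtain ⟨u, rfl, huu⟩ := Cfsg.Agent.H216.UnfPsl.exists_lift t (sq_of_orderOf ht) (by omega)
    obtain ⟨g, hg⟩ := exists_conj_elm (F := F) (n := n) (by omega) huu
    exact ⟨QuotientGroup.mk g, Subgroup.mem_map_of_mem (QuotientGroup.mk' _) hg⟩

/-- the images of conjugate elements -/
theorem isConj_mk_psl {u v : Matrix.SpecialLinearGroup (Fin n) F} (h : IsConj u v) :
    IsConj (QuotientGroup.mk u : Matrix.ProjectiveSpecialLinearGroup (Fin n) F)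
      (QuotientGroup.mk v : Matrix.ProjectiveSpecialLinearGroup (Fin n) F) :=
  MonoidHom.map_isConj (QuotientGroup.mk' _) h

theorem isConj_of_mul {u v h : Matrix.SpecialLinearGroup (Fin n) F} {N N' : Matrix (Fin n) (Fin n) F}
    (hu : (u : Matrix (Fin n) (Fin n) F) = 1 + N) (hv : (v : Matrix (Fin n) (Fin n) F) = 1 + N')
    (hh : (h : Matrix (Fin n) (Fin n) F) * N = N' * (h : Matrix (Fin n) (Fin n) F)) : IsConj u v := by
  rw [isConj_iff]
  refine ⟨h, ?_⟩
  rw [mul_inv_eq_iff_eq_mul]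
  apply Subtype.ext
  show (h : Matrix (Fin n) (Fin n) F) * (u : Matrix (Fin n) (Fin n) F) =
    (v : Matrix (Fin n) (Fin n) F) * (h : Matrix (Fin n) (Fin n) F)
  rw [hu, hv, mul_add, add_mul, mul_one, one_mul, hh]

/-- the one transvection in dimension two -/
theorem exists_std_two [CharP F 2] {u : Matrix.SpecialLinearGroup (Fin 2) F} (hu : u * u = 1) (hu1 : u ≠ 1) :
    ∃ w : Matrix.SpecialLinearGroup (Fin 2) F, (w : Matrix (Fin 2) (Fin 2) F) = 1 + !![0, 1; 0, 0] ∧ IsConj u w := by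
  obtain ⟨g, hg1, hg2⟩ := exists_conj_elm (F := F) (n := 2) (by omega) hu
  obtain ⟨v, hv⟩ : ∃ v, v = g * u * g⁻¹ := ⟨_, rfl⟩
  rw [← hv] at hg1 hg2
  obtain ⟨N, hN⟩ : ∃ N, N = (v : Matrix (Fin 2) (Fin 2) F) - 1 := ⟨_, rfl⟩
  have hvN : (v : Matrix (Fin 2) (Fin 2) F) = 1 + N := by rw [hN]; abel
  rw [← hN] at hg1 hg2
  have hv1 : v ≠ 1 := by
    rintro rfl
    apply hu1
    have : u = g⁻¹ * (g * u * g⁻¹) * g := by group
    rw [this, ← hv]; group
  have p10 : N 1 0 = 0 := by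
    have := congrFun (congrFun hg1 1) 0
    simpa [prj, Matrix.diagonal_mul] using this.symm
  have p11 : N 1 1 = 0 := by
    have := congrFun (congrFun hg1 1) 1
    simpa [prj, Matrix.diagonal_mul] using this.symm
  have p00 : N 0 0 = 0 := by
    have := congrFun (congrFun hg2 0) 0
    simpa [prj, Matrix.mul_diagonal] using this
  have hc : N = !![0, N 0 1; 0, 0] := by
    ext i j
    fin_cases i <;> fin_cases j <;> simp [p10, p11, p00]
  have hc0 : N 0 1 ≠ 0 := by
    intro h0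
    apply hv1
    apply Subtype.ext
    rw [hvN, hc, h0]
    ext i j
    fin_cases i <;> fin_cases j <;> simp
  obtain ⟨c, hcc⟩ : ∃ c, c = N 0 1 := ⟨_, rfl⟩
  rw [← hcc] at hc hc0
  obtain ⟨s, hs⟩ := FiniteField.isSquare_of_char_two (ringChar.eq F 2 ▸ rfl : ringChar F = 2) c
  have hs0 : s ≠ 0 := by rintro rfl; exact hc0 (by rw [hs, zero_mul])
  obtain ⟨h, hh⟩ : ∃ h : Matrix.SpecialLinearGroup (Fin 2) F, (h : Matrix (Fin 2) (Fin 2) F) = !![s⁻¹, 0; 0, s] :=
    ⟨⟨!![s⁻¹, 0; 0, s], by rw [Matrix.det_fin_two_of]; field_simp; simp⟩, rfl⟩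
  obtain ⟨w, hw⟩ : ∃ w : Matrix.SpecialLinearGroup (Fin 2) F, (w : Matrix (Fin 2) (Fin 2) F) = 1 + !![0, 1; 0, 0] :=
    ⟨⟨1 + !![0, 1; 0, 0], by rw [Matrix.det_fin_two]; simp⟩, rfl⟩
  refine ⟨w, hw, ?_⟩
  have e1 : IsConj u v := isConj_iff.2 ⟨g, hv.symm⟩
  refine e1.trans (isConj_of_mul hvN hw (h := h) ?_)
  rw [hh, hc, hs]
  ext i j
  fin_cases i <;> fin_cases j <;> simp [Matrix.mul_apply, Fin.sum_univ_two]
  field_simp

/-- the one transvection in dimension three -/
theorem exists_std_three [CharP F 2] {u : Matrix.SpecialLinearGroup (Fin 3) F} (hu : u * u = 1) (hu1 : u ≠ 1) :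
    ∃ w : Matrix.SpecialLinearGroup (Fin 3) F,
      (w : Matrix (Fin 3) (Fin 3) F) = 1 + !![0, 1, 0; 0, 0, 0; 0, 0, 0] ∧ IsConj u w := by
  obtain ⟨g, hg1, hg2⟩ := exists_conj_elm (F := F) (n := 3) (by omega) hu
  obtain ⟨v, hv⟩ : ∃ v, v = g * u * g⁻¹ := ⟨_, rfl⟩
  rw [← hv] at hg1 hg2
  obtain ⟨N, hN⟩ : ∃ N, N = (v : Matrix (Fin 3) (Fin 3) F) - 1 := ⟨_, rfl⟩
  have hvN : (v : Matrix (Fin 3) (Fin 3) F) = 1 + N := by rw [hN]; abel
  rw [← hN] at hg1 hg2
  have hv1 : v ≠ 1 := by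
    rintro rfl
    apply hu1
    have : u = g⁻¹ * (g * u * g⁻¹) * g := by group
    rw [this, ← hv]; group
  have hrow : ∀ i j : Fin 3, i ≠ 0 → N i j = 0 := by
    intro i j hi
    have := congrFun (congrFun hg1 i) j
    rw [prj, Matrix.diagonal_mul, if_neg (by
      intro h
      apply hi
      ext
      simp at h ⊢
      omega), zero_mul] at this
    exact this.symm
  have p00 : N 0 0 = 0 := by
    have := congrFun (congrFun hg2 0) 0
    rw [prj, Matrix.mul_diagonal, if_pos (by simp), mul_one] at this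
    exact this
  obtain ⟨a, ha⟩ : ∃ a, a = N 0 1 := ⟨_, rfl⟩
  obtain ⟨b, hb⟩ : ∃ b, b = N 0 2 := ⟨_, rfl⟩
  have hc : N = !![0, a, b; 0, 0, 0; 0, 0, 0] := by
    ext i j
    fin_cases i <;> fin_cases j <;> simp [hrow, p00, ha, hb]
  have hc0 : ¬ (a = 0 ∧ b = 0) := by
    rintro ⟨h0, h1⟩
    apply hv1
    apply Subtype.ext
    rw [hvN, hc, h0, h1]
    ext i j
    fin_cases i <;> fin_cases j <;> simp
  obtain ⟨c, d, hcd⟩ : ∃ c d : F, a * d - b * c = 1 := by
    by_cases h0 : a = 0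
    · have hb0 : b ≠ 0 := fun h => hc0 ⟨h0, h⟩
      exact ⟨-b⁻¹, 0, by rw [h0]; field_simp; simp⟩
    · exact ⟨0, a⁻¹, by field_simp; simp⟩
  obtain ⟨h, hh⟩ : ∃ h : Matrix.SpecialLinearGroup (Fin 3) F,
      (h : Matrix (Fin 3) (Fin 3) F) = !![1, 0, 0; 0, a, b; 0, c, d] :=
    ⟨⟨!![1, 0, 0; 0, a, b; 0, c, d], by rw [Matrix.det_fin_three]; simp; linear_combination hcd⟩, rfl⟩
  obtain ⟨w, hw⟩ : ∃ w : Matrix.SpecialLinearGroup (Fin 3) F,
      (w : Matrix (Fin 3) (Fin 3) F) = 1 + !![0, 1, 0; 0, 0, 0; 0, 0, 0] :=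
    ⟨⟨1 + !![0, 1, 0; 0, 0, 0; 0, 0, 0], by rw [Matrix.det_fin_three]; simp⟩, rfl⟩
  refine ⟨w, hw, ?_⟩
  have e1 : IsConj u v := isConj_iff.2 ⟨g, hv.symm⟩
  refine e1.trans (isConj_of_mul hvN hw (h := h) ?_)
  rw [hh, hc]
  ext i j
  fin_cases i <;> fin_cases j <;> simp [Matrix.mul_apply, Fin.sum_univ_three]

theorem one_class_two (hF : Even (Fintype.card F)) (x y : Matrix.ProjectiveSpecialLinearGroup (Fin 2) F)
    (hx : orderOf x = 2) (hy : orderOf y = 2) : IsConj x y := by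
  have hchar : CharP F 2 := charTwo_of_even hF
  obtain ⟨u, rfl, huu⟩ := Cfsg.Agent.H216.UnfPsl.exists_lift x (sq_of_orderOf hx) (by omega)
  obtain ⟨v, rfl, hvv⟩ := Cfsg.Agent.H216.UnfPsl.exists_lift y (sq_of_orderOf hy) (by omega)
  have hu1 : u ≠ 1 := by
    rintro rfl
    exact ne_one_of_orderOf hx rfl
  have hv1 : v ≠ 1 := by
    rintro rfl
    exact ne_one_of_orderOf hy rfl
  obtain ⟨w, hw, h1⟩ := exists_std_two huu hu1
  obtain ⟨w', hw', h2⟩ := exists_std_two hvv hv1
  obtain rfl : w = w' := Subtype.ext (hw.trans hw'.symm)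
  exact isConj_mk_psl (h1.trans h2.symm)

theorem one_class_three (hF : Even (Fintype.card F)) (x y : Matrix.ProjectiveSpecialLinearGroup (Fin 3) F)
    (hx : orderOf x = 2) (hy : orderOf y = 2) : IsConj x y := by
  have hchar : CharP F 2 := charTwo_of_even hF
  obtain ⟨u, rfl, huu⟩ := Cfsg.Agent.H216.UnfPsl.exists_lift x (sq_of_orderOf hx) (by omega)
  obtain ⟨v, rfl, hvv⟩ := Cfsg.Agent.H216.UnfPsl.exists_lift y (sq_of_orderOf hy) (by omega)
  have hu1 : u ≠ 1 := by
    rintro rfl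
    exact ne_one_of_orderOf hx rfl
  have hv1 : v ≠ 1 := by
    rintro rfl
    exact ne_one_of_orderOf hy rfl
  obtain ⟨w, hw, h1⟩ := exists_std_three huu hu1
  obtain ⟨w', hw', h2⟩ := exists_std_three hvv hv1
  obtain rfl : w = w' := Subtype.ext (hw.trans hw'.symm)
  exact isConj_mk_psl (h1.trans h2.symm)

/-- **The row `PSL_n(q)`, `q` even**, first form. -/
theorem crow_psl_even' {L : Type u} [Group L] (hF : Even (Fintype.card F)) (hn : 2 ≤ n)
    (h2 : n = 2 → 4 ≤ Fintype.card F) (hA : n = 4 → Fintype.card F = 2 → CRow L)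
    (e : L ≃* Matrix.ProjectiveSpecialLinearGroup (Fin n) F) : CRow L := by
  by_cases h4 : n = 4 ∧ Fintype.card F = 2
  · exact hA h4.1 h4.2
  · refine CRow.congr e ?_
    by_cases h22 : n = 2
    · subst h22
      exact CRow.of_one_class (one_class_two hF)
    by_cases h33 : n = 3
    · subst h33
      exact CRow.of_one_class (one_class_three hF)
    have hm := Cfsg.Agent.S2086.result (F := F) rfl n hn h2 (by
      simp only [Set.mem_insert_iff, Set.mem_singleton_iff, Prod.mk.injEq]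
      rintro (h | h | h | h | h)
      · exact h22 h.1
      · exact h22 h.1
      · exact h33 h.1
      · exact h33 h.1
      · exact h4 h)
    refine CRow.of_noCov (noCov_of_cyclic hm ?_) (em_psl_even hF hn)
    refine Odd.of_dvd_nat ?_ (Nat.gcd_dvd_right _ _)
    have h5 : 1 ≤ Fintype.card F := Fintype.card_pos
    rw [Nat.odd_sub h5]
    simp [hF]

/-- **The row `PSL_n(q)`, `q` even** (`hA` : the row `A_8 ≅ PSL_4(2)`). -/
theorem crow_psl_even {L : Type u} [Group L] (hF : Even (Fintype.card F)) (hn : 2 ≤ n)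
    (h2 : n = 2 → 4 ≤ Fintype.card F) (hA : CRow (alternatingGroup (Fin 8)))
    (e : L ≃* Matrix.ProjectiveSpecialLinearGroup (Fin n) F) : CRow L := by
  refine crow_psl_even' hF hn h2 (fun h4 hc => ?_) e
  subst h4
  obtain ⟨k⟩ := Cfsg.Agent.S0256.result hc
  exact CRow.congr (e.trans k) hA

end group

end Cfsg.Agent.H731.EMO
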